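import Cfsg.Agent.Srg.Basic

/-! Tools for rank three groups with a Frobenius subconstituent: counting, integrality of the
eigenvalues of a strongly regular graph, and the final arithmetic. -/

set_option autoImplicit false

namespace CF.R3f

open Finset CF.Srg
open scoped _root_.Classical

theorem dc {α β : Type*} (S : Finset α) (T : Finset β) (r : α → β → Prop) [∀ a b, Decidable (r a b)] :
    ∑ a ∈ S, #{b ∈ T | r a b} = ∑ b ∈ T, #{a ∈ S | r a b} := by
  simp only [card_filter]; exact sum_comm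

theorem cd {G : Type*} [Group G] [Fintype G] (H : Subgroup G) : Nat.card H = #{g : G | g ∈ H} := by
  rw [Nat.card_eq_fintype_card, Fintype.card_subtype]

theorem dvd_act {G α : Type*} [Group G] (H : Subgroup G) (f : G → α → α) (S : Finset α) (f1 : ∀ x, f 1 x = x)
    (fm : ∀ g h x, f (g * h) x = f g (f h x)) (hi : ∀ g ∈ H, ∀ x ∈ S, f g x ∈ S)
    (hf : ∀ g ∈ H, ∀ x ∈ S, f g x = x → g = 1) : Nat.card H ∣ #S := by
  let _ : MulAction H S :=
    { smul := fun y x => ⟨f y x, hi _ y.2 _ x.2⟩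
      one_smul := fun x => Subtype.ext (f1 _)
      mul_smul := fun y z x => Subtype.ext (fm _ _ _) }
  have h1 := Nat.card_congr (MulAction.selfEquivOrbitsQuotientProd (G := H) (X := S) fun x =>
    eq_bot_iff.mpr fun y hy => Subtype.ext (hf _ y.2 _ x.2 (congrArg Subtype.val hy)))
  rw [Nat.card_prod, Nat.card_eq_fintype_card, Fintype.card_coe] at h1
  exact Dvd.intro_left _ h1.symm

theorem idem {Ω : Type*} [Fintype Ω] {Γ : SimpleGraph Ω} {k l μ n : ℕ} (h : SR Γ k l μ) (α β γ : ℝ)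
    (hn : Fintype.card Ω = n) (h1 : α ^ 2 * (k - μ) + β ^ 2 = β) (h2 : α ^ 2 * (l - μ) + 2 * α * β = α)
    (h3 : α ^ 2 * μ + 2 * α * γ * k + 2 * β * γ + n * γ ^ 2 = γ) : ∃ f : ℕ, (n : ℝ) * (β + γ) = f := by
  let B : Matrix Ω Ω ℝ := Matrix.of fun x y => (if Γ.Adj x y then α else 0) + (if x = y then β else 0) + γ
  have hB : B * B = B := by
    ext x y
    have a1 : (∑ z, if Γ.Adj x z ∧ Γ.Adj y z then α ^ 2 else 0) = α ^ 2 * (μ + (if x = y then (k - μ : ℝ) else 0) +
        if Γ.Adj x y then (l - μ : ℝ) else 0) := by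
      rw [← sum_filter, sum_const, nsmul_eq_mul, h.cn, mul_comm]
    have a2 : ∀ x, (∑ z, if Γ.Adj x z then α * γ else 0) = α * γ * k := fun x => by
      rw [← sum_filter, sum_const, nsmul_eq_mul, h.deg', mul_comm]
    have e : ∀ z, B x z * B z y = (if Γ.Adj x z ∧ Γ.Adj y z then α ^ 2 else 0) + (if Γ.Adj x z then α * γ else 0) +
        (if Γ.Adj y z then α * γ else 0) + (if x = z then β * B z y else 0) +
        (if y = z then β * ((if Γ.Adj x z then α else 0) + γ) else 0) + γ ^ 2 := fun z => by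
      simp only [B, Matrix.of_apply, Γ.adj_comm z y, @eq_comm _ z y]
      generalize Γ.Adj x z = P, Γ.Adj y z = Q, (x = z) = R, (y = z) = S
      by_cases c1 : P <;> by_cases c2 : Q <;> by_cases c3 : R <;> by_cases c4 : S <;>
        simp only [c1, c2, c3, c4, if_true, if_false, and_self, and_false, false_and] <;> ring1
    rw [Matrix.mul_apply]
    simp only [e, sum_add_distrib, a1, a2, sum_ite_eq, mem_univ, if_true, sum_const, card_univ, hn, nsmul_eq_mul]
    simp only [B, Matrix.of_apply]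
    by_cases c : x = y
    · subst c; simp only [Γ.irrefl, if_true, if_false]; linear_combination h1 + h3
    · by_cases d : Γ.Adj x y <;> simp only [c, d, if_true, if_false]
      · linear_combination h2 + h3
      · linear_combination h3
  have := LinearMap.IsProj.trace (p := LinearMap.range (Matrix.toLin' B)) (f := Matrix.toLin' B)
    ⟨fun x => ⟨x, rfl⟩, by rintro _ ⟨x, rfl⟩; rw [← Matrix.toLin'_mul_apply, hB]⟩
  rw [Matrix.trace_toLin'_eq] at this
  exact ⟨_, by simpa [Matrix.trace, B, hn, mul_add] using this⟩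

/-- integrality of the eigenvalues and multiplicities on an even number of vertices -/
theorem eig {Ω : Type*} [Fintype Ω] {Γ : SimpleGraph Ω} {k l μ n : ℕ} (h : SR Γ k l μ)
    (hn : Fintype.card Ω = n) (e2 : Even n) (n0 : 0 < n) (hk : μ < k)
    (hp : (μ : ℤ) * n = k ^ 2 - (l - μ) * k - (k - μ)) : ∃ D f : ℕ,
    (D : ℤ) ^ 2 = (l - μ) ^ 2 + 4 * (k - μ) ∧ (2 * f - (n - 1) : ℤ) * D = (n - 1) * (μ - l) - 2 * k := by
  obtain ⟨Δ, hΔ⟩ : ∃ Δ : ℕ, (Δ : ℤ) = (l - μ) ^ 2 + 4 * (k - μ) :=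
    ⟨_, Int.toNat_of_nonneg (by have : (μ : ℤ) < k := by exact_mod_cast hk
                                positivity)⟩
  have hΔ' : (Δ : ℝ) = (l - μ) ^ 2 + 4 * (k - μ) := by exact_mod_cast hΔ
  have hp' : (μ : ℝ) * n = k ^ 2 - (l - μ) * k - (k - μ) := by exact_mod_cast hp
  have hk' : (μ : ℝ) < k := by exact_mod_cast hk
  have n0' : (n : ℝ) ≠ 0 := by positivity
  set d := √(Δ : ℝ) with hd
  have d2 : d ^ 2 = (l - μ) ^ 2 + 4 * (k - μ) := by rw [hd, Real.sq_sqrt (by positivity), hΔ']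
  have d0 : d ≠ 0 := fun e => by rw [e] at d2; nlinarith [sq_nonneg ((l : ℝ) - μ)]
  obtain ⟨f, hf⟩ := idem h (1 / d) ((d - (l - μ)) / (2 * d)) (-(k + (d - (l - μ)) / 2) / (n * d)) hn
    (by field_simp; linear_combination (-1) * d2) (by field_simp; ring)
    (by field_simp; linear_combination 4 * hp' + d2)
  have e : (2 * f - (n - 1) : ℝ) * d = (n - 1) * (μ - l) - 2 * k := by
    rw [← hf]; field_simp; ring
  have ne : (2 * f - (n - 1) : ℤ) ≠ 0 := by obtain ⟨m, rfl⟩ := e2; omega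
  have ne' : (2 * f - (n - 1) : ℝ) ≠ 0 := by exact_mod_cast ne
  obtain ⟨D, hD⟩ : IsSquare Δ := by
    by_contra c
    refine irrational_sqrt_natCast_iff.2 c ⟨((n - 1) * (μ - l) - 2 * k) / (2 * f - (n - 1)), ?_⟩
    push_cast; rw [div_eq_iff ne', ← e, mul_comm]
  have : d = D := by rw [hd, hD]; push_cast; exact Real.sqrt_mul_self (by positivity)
  refine ⟨D, f, by rw [← hΔ, hD]; push_cast; ring, ?_⟩
  rw [this] at e; exact_mod_cast e

theorem ar1 {u e ν b D f : ℤ} (hu : Even u) (u0 : 2 ≤ u) (he : Even e) (e0 : 2 ≤ e) (ν0 : 0 ≤ ν) (D0 : 0 ≤ D)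
    (R : (u + 2) * b = e * (u + 1 - ν)) (P : e * (1 + ν ^ 2 + ν) ≤ u * e + 1 + ν)
    (E : D ^ 2 = e ^ 2 + 4 * (u - 1) * e + 4)
    (F : (2 * f - (u + 1) * (u * e + 1)) * D = (u + 1) * (u * e + 1) * e - 2 * (u * e + 1))
    (L : 3 * e < 4 * b ∨ e = 4 ∧ b = 3 → b = e) : u = 2 ∧ e = 2 := by
  have n1 : b ≠ e := fun c => by rw [c] at R; nlinarith
  have n2 : 4 * b ≤ 3 * e := by by_contra c; exact n1 (L (Or.inl (by omega)))
  have n3 : ¬ (e = 4 ∧ b = 3) := fun c => n1 (L (Or.inr c))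
  have n4 : u ≤ 4 * ν + 2 := by by_contra c; nlinarith
  have n5 : ν ≤ 4 := by
    by_contra c
    have a1 : 0 ≤ (4 * ν + 2 - u) * e := mul_nonneg (by omega) (by omega)
    have a2 : 0 ≤ (e - 2) * (ν ^ 2 - 3 * ν - 1) := mul_nonneg (by omega) (by nlinarith)
    nlinarith
  have n6 : ν ≠ 4 := by rintro rfl; nlinarith
  obtain ⟨j, hj⟩ : ∃ j, D + 2 * j = e + 2 * u - 2 := by
    have : Even D := by
      have : Even (D ^ 2) := by rw [E]; obtain ⟨e, rfl⟩ := he; exact ⟨2 * e ^ 2 + 4 * (u - 1) * e + 2, by ring⟩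
      exact (Int.even_pow.1 this).1
    obtain ⟨e, rfl⟩ := he; obtain ⟨D, rfl⟩ := this; exact ⟨e + u - 1 - D, by ring⟩
  have hj2 : j * (e + 2 * u - 2 - j) = u * (u - 2) := by
    have : D = e + 2 * u - 2 - 2 * j := by omega
    subst this; nlinarith
  have j0 : 0 ≤ j := by by_contra c; nlinarith
  have j1 : j ≤ 12 := by by_contra c; nlinarith
  obtain rfl : D = e + 2 * u - 2 - 2 * j := by omega
  clear E L hj
  obtain ⟨u, rfl⟩ := hu
  obtain ⟨e, rfl⟩ := he
  by_cases c : u = 1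
  · subst c
    obtain rfl : j = 0 := by nlinarith
    have : (e + 1) * (f - 12 * e + 5) = 6 := by linarith
    have : e + 1 ≤ 6 := Int.le_of_dvd (by norm_num) ⟨_, this.symm⟩
    have : 1 ≤ e := by omega
    have : e ≤ 5 := by omega
    interval_cases e <;> interval_cases ν <;> omega
  have : u ≤ 7 := by omega
  have : 2 ≤ u := by omega
  have j2 : j ≠ 0 := by rintro rfl; nlinarith
  have he : e = ((u + u) * (u + u - 2) / j + j + 2 - 2 * (u + u)) / 2 := by
    rw [← hj2, Int.mul_ediv_cancel_left _ j2]; omega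
  interval_cases u <;> interval_cases j <;> (try omega) <;> norm_num at he <;> subst he <;>
    interval_cases ν <;> omega

theorem ar {u e m l ν a b D f : ℤ} (hu : Even u) (u0 : 2 ≤ u) (he : Even e) (e0 : 2 ≤ e) (ν0 : 0 ≤ ν) (D0 : 0 ≤ D)
    (m0 : 1 ≤ m) (l0 : 0 ≤ l) (h1 : a ≤ u * e) (h2 : b ≤ e)
    (R1 : (u + 2) * (a + u * b) = u * e * (l + m) * (u + 1)) (R2 : (u + 2) * a = u * e * l + u * (e * ν))
    (P : m * e * (m * e - 1) + e * ν * (e * ν - 1) ≤ u * e * l * (e * ν) + m * e * (u * e * (l + m) - e * ν))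
    (E : D ^ 2 = (u * e * l - m * e) ^ 2 + 4 * (u * e * (l + m) + 1 - m * e))
    (F : (2 * f - (u + 1) * (u * e * (l + m) + 1)) * D =
      (u + 1) * (u * e * (l + m) + 1) * (m * e - u * e * l) - 2 * (u * e * (l + m) + 1))
    (L : 3 * e < 4 * b ∨ e = 4 ∧ b = 3 → b = e) : u = 2 ∧ e = 2 ∧ l + m = 1 := by
  have R : (u + 2) * b = e * ((l + m) * (u + 1) - l - ν) :=
    mul_left_cancel₀ (by omega : u ≠ 0) (by linear_combination R1 - R2)
  have a1 : l + ν ≤ u + 2 := by
    by_contra c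
    have : 0 < u * e := by positivity
    nlinarith
  have a2 : (l + m) * (u + 1) - l - ν ≤ u + 2 := by by_contra c; nlinarith
  have a3 : l + m ≤ 2 := by by_contra c; nlinarith
  have : m = 1 ∧ l = 0 ∨ m = 2 ∧ l = 0 ∨ m = 1 ∧ l = 1 := by omega
  rcases this with ⟨rfl, rfl⟩ | ⟨rfl, rfl⟩ | ⟨rfl, rfl⟩
  · have := ar1 (f := f) hu u0 he e0 ν0 D0 (by linarith) (le_of_mul_le_mul_left (a := e) (by linarith) (by omega))
      (by linarith) (by linarith) L
    omega
  · have P' : e * (4 + ν ^ 2 + 2 * ν) ≤ 4 * u * e + ν + 2 := le_of_mul_le_mul_left (a := e) (by linarith) (by omega)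
    have b1 : 0 ≤ (ν - u) * e := mul_nonneg (by omega) (by omega)
    have b2 : 0 ≤ (e - 2) * (ν ^ 2 - 2 * ν + 4) := mul_nonneg (by omega) (by nlinarith)
    nlinarith
  · obtain ⟨x, hx⟩ : ∃ x, x = e * (u - 1) := ⟨_, rfl⟩
    have E' : D ^ 2 = x ^ 2 + 8 * x + 4 * e + 4 := by rw [hx]; linarith
    have x0 : e ≤ x := by nlinarith
    have ex : Even x := hx ▸ he.mul_right _
    have : Even D := by
      have : Even (D ^ 2) := by
        rw [E']; obtain ⟨x, rfl⟩ := ex; exact ⟨2 * x ^ 2 + 8 * x + 2 * e + 2, by ring⟩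
      exact (Int.even_pow.1 this).1
    have b1 : x + 2 < D := by by_contra c; nlinarith
    have b2 : D < x + 6 := by by_contra c; nlinarith
    obtain ⟨D, rfl⟩ := this
    obtain ⟨x, rfl⟩ := ex
    obtain rfl : D = x + 2 := by omega
    obtain ⟨e, rfl⟩ := he
    have : 2 * e = 3 := by linarith
    omega

/-- a subgroup more than three quarters of which is inverted is abelian -/
theorem three4 {G : Type*} [Group G] [Fintype G] {E : Subgroup G} {s : G}
    (h : 3 * Nat.card E < 4 * #{x | x ∈ E ∧ s * x * s⁻¹ = x⁻¹}) : ∀ x ∈ E, ∀ y ∈ E, x * y = y * x := by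
  set I : Finset G := {x | x ∈ E ∧ s * x * s⁻¹ = x⁻¹} with hI
  have big : ∀ H : Subgroup G, Nat.card E < 2 * Nat.card (H ⊓ E : Subgroup G) → E ≤ H := fun H c => by
    obtain ⟨m, hm⟩ := Subgroup.card_dvd_of_le (inf_le_right : H ⊓ E ≤ E)
    have p : 0 < Nat.card E := Nat.card_pos
    have : m = 1 := by
      by_contra c'
      have : m ≠ 0 := by rintro rfl; omega
      nlinarith [(by omega : 2 ≤ m)]
    exact inf_eq_right.1 (Subgroup.eq_of_le_of_card_ge inf_le_right (by rw [hm, this, mul_one]))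
  have a : ∀ x ∈ I, E ≤ Subgroup.centralizer {x} := fun x hx => big _ (by
    have hx := (mem_filter.1 hx).2
    have c1 := card_union_add_card_inter I (I.image fun y => x⁻¹ * y)
    rw [card_image_of_injective _ (mul_right_injective _)] at c1
    have c2 : #(I ∪ I.image fun y => x⁻¹ * y) ≤ Nat.card E := by
      rw [cd]; refine card_le_card fun z hz => ?_
      simp only [hI, mem_union, mem_image, mem_filter, mem_univ, true_and] at hz ⊢
      rcases hz with hz | ⟨y, hy, rfl⟩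
      exacts [hz.1, E.mul_mem (E.inv_mem hx.1) hy.1]
    have c3 : #(I ∩ I.image fun y => x⁻¹ * y) ≤ Nat.card (Subgroup.centralizer {x} ⊓ E : Subgroup G) := by
      rw [cd]; refine card_le_card fun z hz => ?_
      simp only [hI, mem_inter, mem_image, mem_filter, mem_univ, true_and, Subgroup.mem_inf,
        Subgroup.mem_centralizer_singleton_iff] at hz ⊢
      obtain ⟨hz, y, hy, rfl⟩ := hz
      refine ⟨?_, hz.1⟩
      have e : s * (x⁻¹ * y) * s⁻¹ = (s * x * s⁻¹)⁻¹ * (s * y * s⁻¹) := by group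
      rw [hz.2, hx.2, hy.2, inv_inv, mul_inv_rev, inv_inv] at e
      calc x⁻¹ * y * x = x⁻¹ * y * (x * y⁻¹) * y := by group
        _ = x * (x⁻¹ * y) := by rw [← e]; group
    omega)
  have b : E ≤ Subgroup.centralizer E := big _ (by
    have : #I ≤ Nat.card (Subgroup.centralizer E ⊓ E : Subgroup G) := by
      rw [cd]; refine card_le_card fun z hz => mem_filter.2 ⟨mem_univ _, fun y hy => ?_, (mem_filter.1 hz).2.1⟩
      exact Subgroup.mem_centralizer_singleton_iff.1 (a z hz hy)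
    omega)
  exact fun x hx y hy => b hy x hx

end CF.R3f
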