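import Cfsg.Agent.R3f.A

/-! Rank three groups with a Frobenius subconstituent: the basic set-up. -/

set_option autoImplicit false

namespace CF.R3f

open Finset CF.Srg MulAction
open scoped _root_.Classical

variable {G X : Type*} [Group G] [Fintype G]

theorem orb {α : Type*} (H : Subgroup G) (f : G → α → α) (f1 : ∀ x, f 1 x = x)
    (fm : ∀ g h x, f (g * h) x = f g (f h x)) (x : α) (S : Finset α) (h : ∀ z, z ∈ S ↔ ∃ g ∈ H, f g x = z) :
    #S * #{g | g ∈ H ∧ f g x = x} = Nat.card H := by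
  rw [cd, card_eq_sum_card_fiberwise (f := fun g => f g x) (t := S) fun g hg => (h _).2 ⟨g, (mem_filter.1 hg).2, rfl⟩,
    ← smul_eq_mul, ← sum_const]
  refine sum_congr rfl fun z hz => ?_
  obtain ⟨a, ha, rfl⟩ := (h z).1 hz
  refine card_bij' (fun g _ => a * g) (fun g _ => a⁻¹ * g) (fun g hg => ?_) (fun g hg => ?_) (by simp) (by simp) <;>
    simp only [mem_filter, mem_univ, true_and] at hg ⊢
  · exact ⟨H.mul_mem ha hg.1, by rw [fm, hg.2]⟩
  · exact ⟨H.mul_mem (H.inv_mem ha) hg.1, by rw [fm, hg.2, ← fm, inv_mul_cancel, f1]⟩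

theorem le_coset (S : Finset G) (H : Subgroup G) (h : ∀ a ∈ S, ∀ b ∈ S, a⁻¹ * b ∈ H) : #S ≤ Nat.card H := by
  rcases S.eq_empty_or_nonempty with rfl | ⟨a, ha⟩
  · simp
  · rw [cd]
    exact card_le_card_of_injOn (fun b => a⁻¹ * b) (fun b hb => mem_filter.2 ⟨mem_univ _, h a ha b hb⟩)
      (mul_right_injective _).injOn

theorem cnt_conj (p q : G → Prop) [DecidablePred p] [DecidablePred q] (g : G) (H : ∀ x, q (g * x * g⁻¹) ↔ p x) : #{x | q x} = #{x | p x} :=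
  (card_bijective _ (MulAut.conj g).bijective (by simpa using fun x => (H x).symm)).symm

variable [Fintype X] [MulAction G X]

theorem cnt_smul (p q : X → Prop) [DecidablePred p] [DecidablePred q] (g : G) (H : ∀ x, q (g • x) ↔ p x) : #{x | q x} = #{x | p x} :=
  (card_bijective _ (MulAction.bijective g) (by simpa using fun x => (H x).symm)).symm

theorem cj_smul (g x : G) (P Q : X) : (g * x * g⁻¹) • g • P = g • Q ↔ x • P = Q := by
  rw [mul_smul, mul_smul, inv_smul_smul, smul_left_cancel_iff]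

theorem orbs (H : Subgroup G) (Q : X) (S : Finset X) (e : ∀ z, z ∈ S ↔ ∃ g ∈ H, g • Q = z) :
    #S * Nat.card (H ⊓ stabilizer G Q : Subgroup G) = Nat.card H := by
  rw [← orb H (fun g (x : X) => g • x) (one_smul G) mul_smul Q S e, cd]
  simp only [Subgroup.mem_inf, mem_stabilizer_iff]

theorem dvds (H : Subgroup G) (S : Finset X) (hi : ∀ g ∈ H, ∀ x ∈ S, g • x ∈ S)
    (hf : ∀ g ∈ H, ∀ x ∈ S, g • x = x → g = 1) : Nat.card H ∣ #S :=
  dvd_act H (fun g (x : X) => g • x) S (one_smul G) mul_smul hi hf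

theorem dvdc (H : Subgroup G) (S : Finset G) (hi : ∀ g ∈ H, ∀ x ∈ S, g * x * g⁻¹ ∈ S)
    (hf : ∀ g ∈ H, ∀ x ∈ S, g * x = x * g → g = 1) : Nat.card H ∣ #S :=
  dvd_act H (fun g x => g * x * g⁻¹) S (by simp) (fun _ _ _ => by group) hi fun g a x b e =>
    hf g a x b (mul_inv_eq_iff_eq_mul.1 e)

variable (G) in
/-- two-point stabilizer -/
abbrev s2 (P Q : X) : Subgroup G := stabilizer G P ⊓ stabilizer G Q

/-- rank three group on the graph `Γ`, point stabilizers Frobenius on the neighbours with kernels `K` -/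
structure St (Γ : SimpleGraph X) (K : X → Subgroup G) : Prop where
  inv : ∀ (g : G) P Q, Γ.Adj (g • P) (g • Q) ↔ Γ.Adj P Q
  tr1 : ∀ {P Q P' Q'}, Γ.Adj P Q → Γ.Adj P' Q' → ∃ g : G, g • P = P' ∧ g • Q = Q'
  tr2 : ∀ {P Q P' Q'}, P ≠ Q → ¬ Γ.Adj P Q → P' ≠ Q' → ¬ Γ.Adj P' Q' → ∃ g : G, g • P = P' ∧ g • Q = Q'
  two : ∀ {g : G} {P Q Q'}, Γ.Adj P Q → Γ.Adj P Q' → Q ≠ Q' → g • P = P → g • Q = Q → g • Q' = Q' → g = 1
  mem : ∀ P g, g ∈ K P ↔ g • P = P ∧ (g = 1 ∨ ∀ Q, Γ.Adj P Q → g • Q ≠ Q)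
  reg : ∀ {P Q Q'}, Γ.Adj P Q → Γ.Adj P Q' → ∃ x ∈ K P, x • Q = Q'
  nb : ∀ P, ∃ Q, Γ.Adj P Q
  ex : ∃ P Q, ∃ g : G, Γ.Adj P Q ∧ g ≠ 1 ∧ g • P = P ∧ g • Q = Q
  p1 : ∀ P, ∃ Q R, ¬ Γ.Adj P Q ∧ ¬ Γ.Adj P R ∧ Γ.Adj Q R
  p2 : ∃ P Q R, P ≠ Q ∧ ¬ Γ.Adj P Q ∧ Γ.Adj P R ∧ Γ.Adj Q R
  nil : ∀ P, Group.IsNilpotent (K P)

variable {Γ : SimpleGraph X} {K : X → Subgroup G} {P Q R : X} {g x : G}

namespace St
variable (h : St Γ K)
include h

theorem tr (P Q : X) : ∃ g : G, g • P = Q := by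
  obtain ⟨a, ha⟩ := h.nb P
  obtain ⟨b, hb⟩ := h.nb Q
  exact (h.tr1 ha hb).imp fun _ e => e.1

theorem fix (hx : x ∈ K P) : x • P = P := ((h.mem P x).1 hx).1

theorem free (hx : x ∈ K P) (a : Γ.Adj P Q) (e : x • Q = Q) : x = 1 :=
  ((h.mem P x).1 hx).2.resolve_right fun c => c Q a e

theorem adj (a : Γ.Adj P Q) (e : g • P = P) : Γ.Adj P (g • Q) := by
  have := (h.inv g P Q).2 a; rwa [e] at this

theorem nadj (a : ¬ Γ.Adj P Q) (e : g • P = P) : ¬ Γ.Adj P (g • Q) := fun c => a <| by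
  have := h.adj c (inv_smul_eq_iff.2 e.symm); rwa [inv_smul_smul] at this

theorem cj (g : G) : g * x * g⁻¹ ∈ K (g • P) ↔ x ∈ K P := by
  rw [h.mem, h.mem, cj_smul]
  refine and_congr Iff.rfl (or_congr (by simp [mul_eq_one_iff_eq_inv']) ?_)
  rw [(MulAction.bijective g).surjective.forall]
  simp only [h.inv, ne_eq, cj_smul]

theorem cj' (e : g • P = P) (hx : x ∈ K P) : g * x * g⁻¹ ∈ K P := e ▸ (h.cj g).2 hx

theorem nbfix (e : g • P = P) (n : g ∉ K P) : ∃ Q, Γ.Adj P Q ∧ g • Q = Q := by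
  by_contra c; push Not at c; exact n ((h.mem _ _).2 ⟨e, Or.inr c⟩)

theorem fpf (e : g • P = P) (n : g ∉ K P) (hx : x ∈ K P) (c : g * x = x * g) : x = 1 := by
  obtain ⟨Q, a, b⟩ := h.nbfix e n
  by_contra x1
  exact n (h.two a (h.adj a (h.fix hx)) (fun e => x1 (h.free hx a e.symm)) e b (by rw [← mul_smul, c, mul_smul, b]) ▸
    one_mem _)

theorem const (F : X → X → ℕ) (hF : ∀ (g : G) P Q, F (g • P) (g • Q) = F P Q) :
    ∃ a b, (∀ {P Q}, Γ.Adj P Q → F P Q = a) ∧ ∀ {P Q}, P ≠ Q → ¬ Γ.Adj P Q → F P Q = b := by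
  obtain ⟨P, Q, R, a, b, c, -⟩ := h.p2
  refine ⟨F P R, F P Q, fun e => ?_, fun e e' => ?_⟩
  · obtain ⟨g, rfl, rfl⟩ := h.tr1 c e; exact hF ..
  · obtain ⟨g, rfl, rfl⟩ := h.tr2 a b e e'; exact hF ..

theorem cardK (P : X) : Nat.card (K P) = #{Q | Γ.Adj P Q} := by
  obtain ⟨Q, a⟩ := h.nb P
  rw [← orb (K P) (fun g (x : X) => g • x) (one_smul G) mul_smul Q {Q | Γ.Adj P Q} fun z => by
    simp only [mem_filter, mem_univ, true_and]
    exact ⟨h.reg a, by rintro ⟨g, hg, rfl⟩; exact h.adj a (h.fix hg)⟩]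
  rw [(card_eq_one (s := {g | g ∈ K P ∧ g • Q = Q})).2 ⟨1, by
    ext g; simp only [mem_filter, mem_univ, true_and, mem_singleton]
    exact ⟨fun e => h.free e.1 a e.2, by rintro rfl; exact ⟨one_mem _, one_smul ..⟩⟩⟩, mul_one]

end St

/-- the set-up with its numerical parameters -/
structure Pm (Γ : SimpleGraph X) (K : X → Subgroup G) (k c l w y la mu : ℕ) : Prop extends St Γ K where
  hk : ∀ P, Nat.card (K P) = k
  sr : SR Γ k la mu
  hc : ∀ {P Q}, Γ.Adj P Q → Nat.card (s2 G P Q) = c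
  hw : ∀ {P Q}, P ≠ Q → ¬ Γ.Adj P Q → Nat.card (s2 G P Q) = w
  hy : ∀ {P Q}, P ≠ Q → ¬ Γ.Adj P Q → Nat.card (K P ⊓ stabilizer G Q : Subgroup G) = y
  hl : ∀ P, #{Q | P ≠ Q ∧ ¬ Γ.Adj P Q} = l
  hn : Fintype.card X = 1 + k + l
  lw : l * w = k * c
  hG : Nat.card G = (1 + k + l) * (k * c)

theorem St.pm (h : St Γ K) : ∃ k c l w y la mu, Pm Γ K k c l w y la mu := by
  obtain ⟨A, D, B, a1, a2, a3, -⟩ := h.p2
  obtain ⟨c, w, hc, hw⟩ := h.const (fun P Q => Nat.card (s2 G P Q)) fun g P Q => by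
    simp only [cd]; exact cnt_conj _ _ g fun x => by simp only [Subgroup.mem_inf, mem_stabilizer_iff, cj_smul]
  obtain ⟨-, y, -, hy⟩ := h.const (fun P Q => Nat.card (K P ⊓ stabilizer G Q : Subgroup G)) fun g P Q => by
    simp only [cd]; exact cnt_conj _ _ g fun x => by simp only [Subgroup.mem_inf, mem_stabilizer_iff, cj_smul, h.cj]
  obtain ⟨la, mu, h1, h2⟩ := h.const (fun P Q => #{z | Γ.Adj P z ∧ Γ.Adj Q z}) fun g P Q =>
    cnt_smul _ _ g fun x => by simp only [h.inv]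
  have dg : ∀ P, #{Q | Γ.Adj P Q} = #{Q | Γ.Adj A Q} := fun P => by
    obtain ⟨g, rfl⟩ := h.tr A P; exact cnt_smul _ _ g fun x => h.inv ..
  have o1 := orbs (stabilizer G A) B {Q | Γ.Adj A Q} fun z => by
    simp only [mem_filter, mem_univ, true_and]
    exact ⟨h.tr1 a3, by rintro ⟨g, hg, rfl⟩; exact h.adj a3 hg⟩
  have o2 := orbs (stabilizer G A) D {Q | A ≠ Q ∧ ¬ Γ.Adj A Q} fun z => by
    simp only [mem_filter, mem_univ, true_and]
    exact ⟨fun e => h.tr2 a1 a2 e.1 e.2, by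
      rintro ⟨g, hg, rfl⟩; exact ⟨fun e => a1 (smul_left_cancel g (hg.trans e)), h.nadj a2 hg⟩⟩
  have o3 := orbs (G := G) ⊤ A univ fun z => by simpa using h.tr A z
  have hn : Fintype.card X = 1 + #{Q | Γ.Adj A Q} + #{Q | A ≠ Q ∧ ¬ Γ.Adj A Q} := by
    rw [← card_univ, ← card_filter_add_card_filter_not (s := univ) (Γ.Adj A), add_assoc, add_left_comm,
      ← card_filter_add_card_filter_not (s := {Q | ¬ Γ.Adj A Q}) (A = ·), filter_filter, filter_filter]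
    congr 2
    · exact card_eq_one.2 ⟨A, by ext; simp only [mem_filter, mem_univ, true_and, mem_singleton]; exact
        ⟨fun e => e.2.symm, by rintro rfl; exact ⟨Γ.irrefl, rfl⟩⟩⟩
    · simp only [and_comm]
  rw [hc a3] at o1
  rw [hw a1 a2, ← o1] at o2
  rw [top_inf_eq, Subgroup.card_top, card_univ, hn, ← o1] at o3
  refine ⟨_, c, _, w, y, la, mu, h, fun P => (h.cardK P).trans (dg P), ⟨fun P => (ncard_eq _).trans (dg P),
    fun P Q e => (ncard_eq _).trans (h1 e), fun P Q e e' => (ncard_eq _).trans (h2 e e')⟩, hc, hw, hy, fun P => ?_, hn,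
    o2, o3.symm⟩
  obtain ⟨g, rfl⟩ := h.tr A P
  exact cnt_smul _ _ g fun x => by simp only [h.inv, ne_eq, smul_left_cancel_iff]

namespace Pm
variable {k c l w y la mu : ℕ} (h : Pm Γ K k c l w y la mu)
include h

theorem deg (P : X) : #{Q | Γ.Adj P Q} = k := h.sr.deg' P

theorem c2 : 2 ≤ c := by
  obtain ⟨P, Q, g, a, b, e⟩ := h.ex
  rw [← h.hc a]
  exact (Subgroup.one_lt_card_iff_ne_bot _).2 fun c => b (Subgroup.mem_bot.1 (c ▸ (e : g ∈ s2 G P Q)))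

theorem k2 : 2 ≤ k := by
  obtain ⟨P, Q, R, a, -, b, c⟩ := h.p2
  rw [← h.deg R]
  exact one_lt_card.2 ⟨P, by simpa using b.symm, Q, by simpa using c.symm, a⟩

theorem cdvd : c ∣ k - 1 := by
  obtain ⟨P, Q, -, a, -⟩ := h.ex
  rw [← h.hc a, ← h.deg P, ← card_erase_of_mem (a := Q) (by simpa using a)]
  refine dvds _ _ (fun g hg x hx => ?_) fun g hg x hx e => ?_ <;>
    simp only [mem_erase, mem_filter, mem_univ, true_and] at hx ⊢
  · exact ⟨fun e => hx.1 (smul_left_cancel g (e.trans hg.2.symm)), h.adj hx.2 hg.1⟩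
  · exact h.two a hx.2 hx.1.symm hg.1 hg.2 e

theorem cop : k.Coprime c := by
  obtain ⟨m, hm⟩ := h.cdvd
  have := h.k2
  rw [(by omega : k = 1 + c * m)]; simp

theorem ck : c + 1 ≤ k := by
  have := h.k2
  have := Nat.le_of_dvd (by omega) h.cdvd
  omega

theorem powK (hx : x ∈ K P) : x ^ k = 1 := by
  rw [← h.hk P]; exact congrArg Subtype.val (pow_card_eq_one' (x := (⟨x, hx⟩ : K P)))

theorem powC (e : g • P = P) (n : g ∉ K P) : g ^ c = 1 := by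
  obtain ⟨Q, a, b⟩ := h.nbfix e n
  rw [← h.hc a]; exact congrArg Subtype.val (pow_card_eq_one' (x := (⟨g, e, b⟩ : s2 G P Q)))

theorem memK (e : g • P = P) {m : ℕ} (hm : m.Coprime c) (n : g ^ m = 1) : g ∈ K P := by
  by_contra d
  exact d ((pow_eq_one_iff_of_coprime hm).1 ⟨n, h.powC e d⟩ ▸ one_mem _)

theorem kof (hx : x ∈ K P) (e : x • Q = Q) : x ∈ K Q := h.memK e h.cop (h.powK hx)

theorem cocl (hx : x ∈ K P) (x1 : x ≠ 1) (e : x • Q = Q) (e' : x • R = R) : ¬ Γ.Adj Q R := fun a =>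
  x1 (h.free (h.kof hx e) a e')

theorem exJ (P : X) : ∃ Q, P ≠ Q ∧ ¬ Γ.Adj P Q := by
  obtain ⟨Q, R, a, b, c⟩ := h.p1 P
  exact ⟨Q, fun e => b (e ▸ c), a⟩

/-- a nontrivial normal subset of a point stabilizer inside the kernel fixes no non-neighbour -/
theorem nfix (S : Set G) (hS : ∀ g, g • P = P → ∀ x ∈ S, g * x * g⁻¹ ∈ S) (hK : x ∈ K P) (hx : x ∈ S) (x1 : x ≠ 1)
    (a : P ≠ Q) (b : ¬ Γ.Adj P Q) : ∃ z ∈ S, z • Q ≠ Q := by
  by_contra d; push Not at d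
  have : ∀ R, ¬ Γ.Adj P R → x • R = R := fun R e => by
    by_cases f : P = R
    · exact f ▸ h.fix hK
    obtain ⟨g, e1, rfl⟩ := h.tr2 f e a b
    have := d _ (hS g e1 x hx)
    rwa [cj_smul] at this
  obtain ⟨A, B, a1, a2, a3⟩ := h.p1 P
  exact h.cocl hK x1 (this A a1) (this B a2) a3

theorem exK (P : X) : ∃ x ∈ K P, x ≠ 1 := by
  have := h.k2
  rw [← h.hk P] at this
  by_contra d; push Not at d
  exact (Subgroup.one_lt_card_iff_ne_bot _).1 this (eq_bot_iff.2 d)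

theorem yk : y < k := by
  obtain ⟨P, -⟩ := h.ex
  obtain ⟨Q, a, b⟩ := h.exJ P
  obtain ⟨x, hx, x1⟩ := h.exK P
  obtain ⟨z, hz, e⟩ := h.nfix (K P) (fun g e x => h.cj' e) hx hx x1 a b
  rw [← h.hy a b, ← h.hk P]
  refine lt_of_le_of_ne (Subgroup.card_le_of_le inf_le_left) fun d => e ?_
  exact ((Subgroup.eq_of_le_of_card_ge inf_le_left d.ge).ge hz).2

theorem ydvd : y ∣ k := by
  obtain ⟨P, -⟩ := h.ex
  obtain ⟨Q, a, b⟩ := h.exJ P
  rw [← h.hy a b, ← h.hk P]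
  exact Subgroup.card_dvd_of_le inf_le_left

theorem y0 : 0 < y := Nat.pos_of_dvd_of_pos h.ydvd (by have := h.k2; omega)

theorem w0 : 0 < w := by
  obtain ⟨P, -⟩ := h.ex
  obtain ⟨Q, a, b⟩ := h.exJ P
  rw [← h.hw a b]; exact Nat.card_pos

theorem mu0 : 0 < mu := by
  obtain ⟨P, Q, R, a, b, d, e⟩ := h.p2
  rw [← h.sr.nadj' a b]
  exact card_pos.2 ⟨R, by simpa using ⟨d, e⟩⟩

theorem wmu : w ∣ mu := by
  obtain ⟨P, Q, R, a, b, -⟩ := h.p2
  rw [← h.sr.nadj' a b, ← h.hw a b]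
  refine dvds _ _ (fun g hg x hx => ?_) fun g hg x hx e => ?_ <;> simp only [mem_filter, mem_univ, true_and] at hx ⊢
  · exact ⟨h.adj hx.1 hg.1, h.adj hx.2 hg.2⟩
  · exact h.two hx.1.symm hx.2.symm a e hg.1 hg.2

theorem cla : c ∣ la := by
  obtain ⟨P, Q, -, a, -⟩ := h.ex
  rw [← h.sr.adj' a, ← h.hc a]
  refine dvds _ _ (fun g hg x hx => ?_) fun g hg x hx e => ?_ <;> simp only [mem_filter, mem_univ, true_and] at hx ⊢
  · exact ⟨h.adj hx.1 hg.1, h.adj hx.2 hg.2⟩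
  · exact h.two a hx.1 hx.2.ne hg.1 hg.2 e

/-- neighbours of a non-neighbour -/
theorem nbJ (a : P ≠ Q) (b : ¬ Γ.Adj P Q) : mu + #{R | (P ≠ R ∧ ¬ Γ.Adj P R) ∧ Γ.Adj Q R} = k := by
  rw [← h.deg Q, ← card_filter_add_card_filter_not (s := {R | Γ.Adj Q R}) (Γ.Adj P), filter_filter, filter_filter,
    ← h.sr.nadj' a b]
  congr 2
  · ext; simp only [mem_filter, mem_univ, true_and, and_comm]
  · ext R; simp only [mem_filter, mem_univ, true_and]
    exact ⟨fun e => ⟨e.2, e.1.2⟩, fun e => ⟨⟨fun f => b (f ▸ e.1.symm), e.2⟩, e.1⟩⟩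

theorem muk : mu < k := by
  obtain ⟨P, -⟩ := h.ex
  obtain ⟨Q, R, a, b, d⟩ := h.p1 P
  have := h.nbJ (fun e : P = Q => b (e ▸ d)) a
  have : 0 < #{R | (P ≠ R ∧ ¬ Γ.Adj P R) ∧ Γ.Adj Q R} :=
    card_pos.2 ⟨R, by simpa using ⟨⟨fun e : P = R => a (e ▸ d.symm), b⟩, d⟩⟩
  omega

theorem par : k * (k - la - 1) = l * mu := by
  obtain ⟨P, -⟩ := h.ex
  have : Nonempty X := ⟨P⟩
  rw [h.sr.param, h.hn]; congr 1; omega

/-- the elements interchanging two points -/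
theorem swp (P Q : X) (p : G → Prop) [DecidablePred p] (hp : ∀ s, p s → s * s = 1 ∧ s • P = Q) :
    #{s | p s} ≤ Nat.card (s2 G P Q) := by
  refine le_coset _ _ fun a ha b hb => ?_
  obtain ⟨a1, a2⟩ := hp a (mem_filter.1 ha).2
  obtain ⟨b1, b2⟩ := hp b (mem_filter.1 hb).2
  refine ⟨?_, ?_⟩ <;> show _ • _ = _
  · rw [mul_smul, b2, ← a2, inv_smul_smul]
  · rw [mul_smul, ← b2, ← mul_smul b, b1, one_smul, b2, inv_eq_of_mul_eq_one_right a1, a2]

end Pm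

end CF.R3f
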