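import Cfsg.Agent.R3f.B
import Cfsg.Agent.Solv.Nilpotent

/-! Rank three groups with a Frobenius subconstituent: the kernel has odd order. -/

set_option autoImplicit false

namespace CF.R3f

open Finset CF.Srg MulAction
open scoped _root_.Classical

variable {G X : Type*} [Group G] [Fintype G] [Fintype X] [MulAction G X] {Γ : SimpleGraph X} {K : X → Subgroup G}
  {A B D P Q R : X} {g x z : G}

theorem split (Γ : SimpleGraph X) (A : X) (F : X → ℕ) :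
    ∑ Q, F Q = F A + ∑ Q with Γ.Adj A Q, F Q + ∑ Q with A ≠ Q ∧ ¬ Γ.Adj A Q, F Q := by
  rw [← sum_filter_add_sum_filter_not univ (Γ.Adj A), add_assoc, add_left_comm,
    ← sum_filter_add_sum_filter_not {Q | ¬ Γ.Adj A Q} (A = ·), filter_filter, filter_filter]
  congr 2
  · rw [← sum_singleton F A]; congr 1; ext; simp only [mem_filter, mem_univ, true_and, mem_singleton]
    exact ⟨fun e => e.2.symm, by rintro rfl; exact ⟨Γ.irrefl, rfl⟩⟩
  · simp only [and_comm]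

/-- central involutions -/
def Z (H : Subgroup G) : Subgroup G where
  carrier := {z | z ∈ H ∧ z * z = 1 ∧ ∀ x ∈ H, z * x = x * z}
  one_mem' := ⟨one_mem _, by simp, by simp⟩
  mul_mem' := fun {a b} ha hb => ⟨mul_mem ha.1 hb.1, by
    rw [mul_assoc, ← mul_assoc b, hb.2.2 a ha.1, mul_assoc, hb.2.1, mul_one, ha.2.1], fun x hx => by
    rw [mul_assoc, hb.2.2 x hx, ← mul_assoc, ha.2.2 x hx, mul_assoc]⟩
  inv_mem' := fun {a} ha => by rwa [inv_eq_of_mul_eq_one_right ha.2.1]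

theorem exZ (H : Subgroup G) [Group.IsNilpotent H] (e : 2 ∣ Nat.card H) : ∃ z ∈ Z H, z ≠ 1 := by
  obtain ⟨S⟩ : Nonempty (Sylow 2 H) := inferInstance
  have := CF.Solv.isNilpotent_iff_sylow_normal.1 ‹_› 2 inferInstance S
  have a := CF.Solv.normal_inf_center_ne_bot (S : Subgroup H) (S.ne_bot_of_dvd_card e)
  obtain ⟨n, hn⟩ := IsPGroup.iff_card.1 (S.isPGroup'.to_le (inf_le_left (b := Subgroup.center H)))
  obtain ⟨⟨z, b⟩, c⟩ := exists_prime_orderOf_dvd_card' (G := ↥((S : Subgroup H) ⊓ Subgroup.center H)) 2 (by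
    rw [hn]; exact dvd_pow_self _ fun e => a (Subgroup.card_eq_one.1 (by rw [hn, e, pow_zero])))
  rw [Subgroup.orderOf_mk, ← Subgroup.orderOf_coe] at c
  exact ⟨z, ⟨z.2, by rw [← sq, ← c, pow_orderOf_eq_one], fun x hx =>
    (congrArg Subtype.val (Subgroup.mem_center_iff.1 b.2 ⟨x, hx⟩)).symm⟩, fun d => by simp [d] at c⟩

namespace Pm
variable {k c l w y la mu : ℕ} (h : Pm Γ K k c l w y la mu)
include h

theorem Zcj (g : G) (hz : z ∈ Z (K P)) : g * z * g⁻¹ ∈ Z (K (g • P)) :=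
  ⟨(h.cj g).2 hz.1, by rw [conj_mul, hz.2.1]; simp, fun x hx => by
    have := hz.2.2 (g⁻¹ * x * g) ((h.cj g).1 (by simpa [mul_assoc] using hx))
    calc _ = g * (z * (g⁻¹ * x * g)) * g⁻¹ := by group
      _ = _ := by rw [this]; group⟩

theorem Zcj' (e : g • P = P) (hz : z ∈ Z (K P)) : g * z * g⁻¹ ∈ Z (K P) := by
  have := h.Zcj g hz; rwa [e] at this

theorem Zc (P Q : X) : Nat.card (Z (K P)) = Nat.card (Z (K Q)) := by
  obtain ⟨g, rfl⟩ := h.tr P Q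
  simp only [cd]
  exact (cnt_conj _ _ g fun x => ⟨fun e => by simpa [mul_assoc] using h.Zcj g⁻¹ e, h.Zcj g⟩).symm

theorem cZ (P : X) : c ∣ #{z | z ∈ Z (K P) ∧ z ≠ 1} := by
  obtain ⟨Q, a⟩ := h.nb P
  rw [← h.hc a]
  refine dvdc _ _ (fun g hg x hx => ?_) fun g hg x hx e => ?_ <;> simp only [mem_filter, mem_univ, true_and] at hx ⊢
  · exact ⟨h.Zcj' hg.1 hx.1, by simpa using hx.2⟩
  · by_contra d; exact hx.2 (h.fpf hg.1 (fun f => d (h.free f a hg.2)) hx.1.1 e)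

omit h in
theorem Z1 (H : Subgroup G) : #{z | z ∈ H ∧ z ≠ 1} + 1 = Nat.card H := by
  rw [cd, ← card_erase_add_one (s := {g | g ∈ H}) (a := 1) (by simp)]; congr 2; ext; simp [and_comm]

theorem moved (A : X) (S : Finset G) (hp : ∀ s ∈ S, s * s = 1 ∧ s • A ≠ A) : #S ≤ 2 * (k * c) := by
  rw [card_eq_sum_card_fiberwise (f := fun s => s • A) (t := univ) (by simp), split Γ A, two_mul,
    card_eq_zero.2 (filter_eq_empty_iff.2 fun s hs => (hp s hs).2), zero_add]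
  have e : ∀ Q, #{s ∈ S | s • A = Q} ≤ Nat.card (s2 G A Q) := fun Q => by
    convert h.swp A Q (fun s => s ∈ S ∧ s • A = Q) fun s hs => ⟨(hp s hs.1).1, hs.2⟩ using 2
    ext; simp
  refine add_le_add ?_ ?_
  · rw [← h.deg A, ← smul_eq_mul, ← sum_const]
    exact sum_le_sum fun Q hQ => h.hc (mem_filter.1 hQ).2 ▸ e Q
  · rw [← h.lw, ← h.hl A, ← smul_eq_mul, ← sum_const]
    exact sum_le_sum fun Q hQ => h.hw (mem_filter.1 hQ).2.1 (mem_filter.1 hQ).2.2 ▸ e Q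

theorem free1 (y1 : y = 1) (hx : x ∈ K P) (a : P ≠ Q) (e : x • Q = Q) : x = 1 := by
  by_cases b : Γ.Adj P Q
  · exact h.free hx b e
  · exact Subgroup.mem_bot.1 (Subgroup.card_eq_one.1 ((h.hy a b).trans y1) ▸ (⟨hx, e⟩ : x ∈ K P ⊓ stabilizer G Q))

theorem kl (y1 : y = 1) : k ∣ l := by
  obtain ⟨P, -⟩ := h.ex
  rw [← h.hl P, ← h.hk P]
  refine dvds _ _ (fun g hg x hx => ?_) fun g hg x hx e => ?_ <;> simp only [mem_filter, mem_univ, true_and] at hx ⊢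
  · exact ⟨fun e => hx.1 (smul_left_cancel g ((h.fix hg).trans e)), h.nadj hx.2 (h.fix hg)⟩
  · exact h.free1 y1 hg hx.1 e

theorem l0 : 0 < l := by
  have := h.lw; have := h.k2; have := h.c2
  by_contra d; obtain rfl : l = 0 := by omega
  nlinarith

/-- an element outside the kernel fixes at most one point of a regular orbit of the kernel -/
theorem one1 (y1 : y = 1) (a : A ≠ D) (e1 : g • A = A) (n : g ∉ K A) (e2 : g • D = D) (hx : x ∈ K A)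
    (e3 : g • x • D = x • D) : x = 1 := by
  have := h.free1 y1 (mul_mem (inv_mem hx) (h.cj' e1 hx)) a (by
    rw [mul_smul, mul_smul, inv_smul_eq_iff.2 e2.symm, mul_smul, e3, inv_smul_smul])
  exact h.fpf e1 n hx (by rw [← mul_inv_eq_iff_eq_mul, eq_comm, ← inv_mul_eq_one, this])

theorem lk (y1 : y = 1) : l ≠ k := fun e => by
  obtain ⟨A, -⟩ := h.ex
  obtain ⟨D, a, b⟩ := h.exJ A
  have wc : w = c := Nat.eq_of_mul_eq_mul_left h.l0 (h.lw.trans (by rw [e]))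
  obtain ⟨g, ⟨e1, e2⟩, g1⟩ := (Subgroup.nontrivial_iff_exists_ne_one _).1 (Finite.one_lt_card_iff_nontrivial.1
    (show 1 < Nat.card (s2 G A D) by rw [h.hw a b, wc]; exact h.c2))
  have n := fun f => g1 (h.free1 y1 f a e2)
  obtain ⟨D', a', b'⟩ := h.nbfix e2 fun f => g1 (h.free1 y1 f a.symm e1)
  by_cases d : Γ.Adj A D'
  · exact g1 (h.two d.symm a'.symm a b' e1 e2)
  have o := orbs (K A) D (univ.filter fun z => ∃ g ∈ K A, g • D = z) (by simp)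
  rw [h.hy a b, y1, mul_one, h.hk, ← e, ← h.hl A] at o
  have := eq_of_subset_of_card_le (fun z hz => by
    obtain ⟨x, hx, rfl⟩ := (mem_filter.1 hz).2
    exact mem_filter.2 ⟨mem_univ _, fun e => a (smul_left_cancel x ((h.fix hx).trans e)), h.nadj b (h.fix hx)⟩) o.ge
  obtain ⟨x, hx, rfl⟩ := (mem_filter.1 (this.ge (mem_filter.2 ⟨mem_univ D', fun f => b (f ▸ a'.symm), d⟩))).2
  rw [h.one1 y1 a e1 n e2 hx b', one_smul] at a'
  exact Γ.irrefl a'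

theorem y1 (ek : 2 ∣ k) : y ≠ 1 := fun y1 => by
  obtain ⟨A, -⟩ := h.ex
  have := h.nil A
  obtain ⟨z, hz⟩ := exZ (K A) (h.hk A ▸ ek)
  have a1 := Nat.le_of_dvd (card_pos.2 ⟨z, by simpa using hz⟩) (h.cZ A)
  have a2 := h.moved A ((univ.erase A).biUnion fun P => {z | z ∈ Z (K P) ∧ z ≠ 1}) fun s hs => by
    simp only [mem_biUnion, mem_erase, mem_filter, mem_univ, true_and, and_true] at hs
    obtain ⟨P, a, b, d⟩ := hs
    exact ⟨b.2.1, fun e => d (h.free1 y1 b.1 a e)⟩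
  rw [card_biUnion fun P _ Q _ e => disjoint_left.2 fun s a b => by
    simp only [mem_filter, mem_univ, true_and] at a b
    exact a.2 (h.free1 y1 a.1.1 e (h.fix b.1.1)), sum_const_nat (m := #{z | z ∈ Z (K A) ∧ z ≠ 1}) fun P _ => by
    have := Z1 (Z (K P)); have := Z1 (Z (K A)); have := h.Zc P A; omega,
    card_erase_of_mem (mem_univ _), card_univ, h.hn] at a2
  have := Nat.le_of_dvd h.l0 (h.kl y1)
  have := h.lk y1
  have := h.c2
  have : (k + l) * c ≤ 2 * (k * c) := le_trans (Nat.mul_le_mul (by omega) a1) a2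
  nlinarith [(by omega : k + 1 ≤ l)]

theorem Yeq (a : A ≠ D) (b : ¬ Γ.Adj A D) (y1 : y ≠ 1) (hP : ∀ x ∈ K A ⊓ stabilizer G D, x • P = P)
    (hQ : ∀ x ∈ K A ⊓ stabilizer G D, x • Q = Q) (n : P ≠ Q) :
    ¬ Γ.Adj P Q ∧ K P ⊓ stabilizer G Q = K A ⊓ stabilizer G D := by
  obtain ⟨x, hx, x1⟩ := (Subgroup.nontrivial_iff_exists_ne_one _).1 (Finite.one_lt_card_iff_nontrivial.1
    (show 1 < Nat.card (K A ⊓ stabilizer G D : Subgroup G) by have := h.y0; rw [h.hy a b]; omega))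
  have := h.cocl hx.1 x1 (hP x hx) (hQ x hx)
  exact ⟨this, (Subgroup.eq_of_le_of_card_ge (H := K A ⊓ stabilizer G D) (K := K P ⊓ stabilizer G Q)
    (fun x hx => ⟨h.kof hx.1 (hP x hx), hQ x hx⟩)
    (by rw [h.hy n this, h.hy a b])).symm⟩

theorem cenK (a : A ≠ D) (b : ¬ Γ.Adj A D) (y1 : y ≠ 1) (e : g • A = A)
    (d : ∀ x ∈ K A ⊓ stabilizer G D, g * x = x * g) : g ∈ K A := by
  obtain ⟨x, hx, x1⟩ := (Subgroup.nontrivial_iff_exists_ne_one _).1 (Finite.one_lt_card_iff_nontrivial.1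
    (show 1 < Nat.card (K A ⊓ stabilizer G D : Subgroup G) by have := h.y0; rw [h.hy a b]; omega))
  by_contra n
  exact x1 (h.fpf e n hx.1 (d x hx))

theorem key (ek : 2 ∣ k) (a : A ≠ D) (b : ¬ Γ.Adj A D) :
    (∀ x ∈ Z (K A), x • D = D → x ∈ Z (K D)) ∧
      ∀ z ∈ Z (K D), ∀ z' ∈ Z (K D), z • A ≠ A → z' • A ≠ A → z • A = z' • A := by
  have y1 := h.y1 ek
  set Y := K A ⊓ stabilizer G D with hY
  let T : Finset X := {P | A ≠ P ∧ ∀ x ∈ Y, x • P = P}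
  have hA : ∀ x ∈ Y, x • A = A := fun x hx => h.fix hx.1
  have cm : ∀ P ∈ T, ∀ z ∈ Z (K P), ∀ x ∈ Y, z * x = x * z := fun P hP z hz x hx =>
    hz.2.2 x (h.kof hx.1 ((mem_filter.1 hP).2.2 x hx))
  have mT : ∀ P ∈ T, ∀ z ∈ Z (K P), z • A ≠ A → z • A ∈ T := fun P hP z hz e => mem_filter.2 ⟨mem_univ _, e.symm,
    fun x hx => by rw [← mul_smul, ← cm P hP z hz x hx, mul_smul, hA x hx]⟩
  have e := dc T T fun P Q => ∃ z ∈ Z (K P), z • A = Q
  have l1 : ∀ P ∈ T, 1 ≤ #{Q ∈ T | ∃ z ∈ Z (K P), z • A = Q} := fun P hP => by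
    have := h.nil P
    obtain ⟨z, hz, z1⟩ := exZ (K P) (h.hk P ▸ ek)
    have n := (mem_filter.1 hP).2
    obtain ⟨z, hz, e⟩ := h.nfix (Z (K P)) (fun g e x hx => h.Zcj' e hx) hz.1 hz z1 n.1.symm
      (h.Yeq a b y1 n.2 hA n.1.symm).1
    exact card_pos.2 ⟨_, mem_filter.2 ⟨mT P hP z hz e, z, hz, rfl⟩⟩
  have l2 : ∀ Q ∈ T, #{P ∈ T | ∃ z ∈ Z (K P), z • A = Q} ≤ 1 := fun Q hQ => card_le_one.2 fun P hP P' hP' => by
    obtain ⟨hP, z, hz, e⟩ := mem_filter.1 hP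
    obtain ⟨hP', z', hz', e'⟩ := mem_filter.1 hP'
    have n := (mem_filter.1 hQ).2
    have m : z * z' ∈ Y := (h.Yeq a b y1 hA n.2 n.1).2.le ⟨h.cenK a b y1 (by
      rw [mul_smul, e', ← e, ← mul_smul, hz.2.1, one_smul]) fun x hx => by
      rw [mul_assoc, cm P' hP' z' hz' x hx, ← mul_assoc, cm P hP z hz x hx, mul_assoc], by
      show _ • _ = _; rw [mul_smul, ← e', ← mul_smul z', hz'.2.1, one_smul, e, e']⟩
    by_contra d
    have f := (mem_filter.1 hP').2.2 _ m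
    rw [mul_smul, h.fix hz'.1] at f
    exact n.1 ((hA z ((h.Yeq a b y1 (mem_filter.1 hP).2.2 (mem_filter.1 hP').2.2 d).2.le ⟨hz.1, f⟩)).symm.trans e)
  have e1 := (sum_eq_sum_iff_of_le l1).1 (le_antisymm (sum_le_sum l1) (e ▸ sum_le_sum l2))
  have e2 := (sum_eq_sum_iff_of_le l2).1 (le_antisymm (sum_le_sum l2) (e ▸ sum_le_sum l1))
  have hD : D ∈ T := mem_filter.2 ⟨mem_univ _, a, fun x hx => hx.2⟩
  refine ⟨fun x hx f => ?_, fun z hz z' hz' f f' => card_le_one.1 (e1 D hD).ge _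
    (mem_filter.2 ⟨mT D hD z hz f, z, hz, rfl⟩) _ (mem_filter.2 ⟨mT D hD z' hz' f', z', hz', rfl⟩)⟩
  obtain ⟨P, hP⟩ := card_pos.1 (e2 D hD).ge
  obtain ⟨hP, z, hz, e⟩ := mem_filter.1 hP
  have := h.Zcj z hx
  rwa [e, cm P hP z hz x ⟨hx.1, f⟩, mul_inv_cancel_right] at this

theorem nbI (a : Γ.Adj P Q) : 1 + la + #{R | (P ≠ R ∧ ¬ Γ.Adj P R) ∧ Γ.Adj Q R} = k := by
  have := split Γ P fun R => if Γ.Adj Q R then 1 else 0
  simp only [← card_filter, filter_filter, a.symm, if_true] at this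
  rw [← h.deg Q, this, h.sr.adj' a]

theorem kodd (oc : Odd c) : ¬ 2 ∣ k := fun ek => by
  have mz : ∀ {A D}, A ≠ D → ¬ Γ.Adj A D → ∀ z ∈ Z (K A), ∀ z' ∈ Z (K A), (z • D = D ↔ z' • D = D) → (z * z') • D = D :=
    fun {A D} a b z hz z' hz' e => by
      by_cases d : z • D = D
      · rw [mul_smul, e.1 d, d]
      · rw [mul_smul, ← (h.key ek a.symm fun f => b f.symm).2 z hz z' hz' d (mt e.2 d), ← mul_smul, hz.2.1, one_smul]
  have ne : ∀ {A}, ∀ z ∈ Z (K A), ∀ z', z ≠ z' → z * z' ≠ 1 := fun z hz z' a b =>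
    a (mul_left_cancel (hz.2.1.trans b.symm))
  obtain ⟨A, B, -, hB, -⟩ := h.ex
  have := h.nil A
  obtain ⟨z0, hz0⟩ := exZ (K A) (h.hk A ▸ ek)
  have a1 := h.cZ A
  have a2 := Nat.le_of_dvd (card_pos.2 ⟨z0, by simpa using hz0⟩) a1
  have a3 := Z1 (Z (K A))
  have c2 := h.c2
  have a4 : Nat.card (Z (K A)) ≤ 4 := by
    by_contra d
    obtain ⟨Q, R, b1, b2, b3⟩ := h.p1 A
    obtain ⟨z, hz, z', hz', n, e⟩ := exists_ne_map_eq_of_card_lt_of_maps_to (s := {z | z ∈ Z (K A)})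
      (t := (univ : Finset (Prop × Prop))) (by rw [← cd, card_univ, Fintype.card_prod, Fintype.card_prop]; omega)
      (f := fun z => (z • Q = Q, z • R = R)) fun _ _ => mem_univ _
    simp only [mem_filter, mem_univ, true_and, Prod.mk.injEq, eq_iff_iff] at hz hz' e
    exact h.cocl (mul_mem hz hz').1 (ne z hz z' n) (mz (fun f : A = Q => b2 (f ▸ b3)) b1 z hz z' hz' e.1)
      (mz (fun f : A = R => b1 (f ▸ b3.symm)) b2 z hz z' hz' e.2) b3
  obtain rfl : c = 3 := by obtain ⟨m, rfl⟩ := oc; omega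
  have a5 : ∀ P, Nat.card (Z (K P)) = 4 := fun P => by rw [h.Zc P A]; omega
  have exh : ∀ {A D}, A ≠ D → ¬ Γ.Adj A D → ∃ z, (z ∈ Z (K A) ∧ z ≠ 1) ∧ z • D = D := fun {A D} a b => by
    obtain ⟨z, hz, z', hz', n, e⟩ := exists_ne_map_eq_of_card_lt_of_maps_to (s := {z | z ∈ Z (K A)})
      (t := (univ : Finset Prop)) (by rw [← cd, a5]; simp) (f := fun z => (z • D = D)) fun _ _ => mem_univ _
    simp only [mem_filter, mem_univ, true_and, eq_iff_iff] at hz hz' e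
    exact ⟨_, ⟨mul_mem hz hz', ne z hz z' n⟩, mz a b z hz z' hz' e⟩
  have uh : ∀ {A D z z'}, A ≠ D → ¬ Γ.Adj A D → z ∈ Z (K A) ∧ z ≠ 1 → z' ∈ Z (K A) ∧ z' ≠ 1 → z • D = D → z' • D = D →
      z = z' := fun {A D z z'} a b hz hz' e e' => by
    by_contra n
    obtain ⟨x, hx, f⟩ := h.nfix (Z (K A)) (fun g e x hx => h.Zcj' e hx) hz.1.1 hz.1 hz.2 a b
    have d := Subgroup.card_dvd_of_le (inf_le_left : Z (K A) ⊓ stabilizer G D ≤ _)
    have : 2 < Nat.card (Z (K A) ⊓ stabilizer G D : Subgroup G) := by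
      rw [cd]
      exact two_lt_card_iff.2 ⟨1, z, z', by simp, by simpa using ⟨hz.1, e⟩, by simpa using ⟨hz'.1, e'⟩, hz.2.symm,
        hz'.2.symm, n⟩
    refine f ((Subgroup.eq_of_le_of_card_ge (H := Z (K A) ⊓ stabilizer G D) inf_le_left ?_).ge hx).2
    rw [a5] at d ⊢
    have := Nat.le_of_dvd (by norm_num) d
    generalize Nat.card (Z (K A) ⊓ stabilizer G D : Subgroup G) = m at *
    interval_cases m <;> omega
  have cr : ∀ {A D Q z z'}, A ≠ D → ¬ Γ.Adj A D → A ≠ Q → ¬ Γ.Adj A Q → z ∈ Z (K A) ∧ z ≠ 1 → z' ∈ Z (K A) ∧ z' ≠ 1 →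
      z • D = D → z' • Q = Q → z ≠ z' → Γ.Adj D Q := fun {A D Q z z'} a b a' b' hz hz' e e' n => by
    by_contra d
    have n1 : z • Q ≠ Q := fun f => n (uh a' b' hz hz' f e')
    have n2 : D ≠ Q := fun f => n1 (f ▸ e)
    obtain ⟨u, hu, f⟩ := exh n2 d
    have f2 : z' • z • Q = z • Q := by rw [← mul_smul, hz'.1.2.2 z hz.1.1, mul_smul, e']
    have := uh n1.symm (h.cocl hz'.1.1 hz'.2 e' f2) ⟨(h.key ek n2 d).1 u hu.1 f, hu.2⟩
      ⟨(h.key ek a' b').1 z' hz'.1 e', hz'.2⟩ (by rw [← mul_smul, hu.1.2.2 z (h.kof hz.1.1 e), mul_smul, f]) f2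
    exact n (uh a b hz hz' e (this ▸ h.fix hu.1.1))
  let κ : G → ℕ := fun z => #{Q | (A ≠ Q ∧ ¬ Γ.Adj A Q) ∧ z • Q = Q}
  let S : Finset G := {z | (z ∈ Z (K A) ∧ z ≠ 1) ∧ ∃ Q, (A ≠ Q ∧ ¬ Γ.Adj A Q) ∧ z • Q = Q}
  have k1 : ∀ z ∈ S, κ z + k = l + mu := fun z hz => by
    obtain ⟨hz, D, a, e⟩ := (mem_filter.1 hz).2
    rw [← h.nbJ a.1 a.2, ← h.hl A, ← card_filter_add_card_filter_not (s := {Q | A ≠ Q ∧ ¬ Γ.Adj A Q}) (fun Q => z • Q = Q),
      filter_filter, filter_filter, add_left_comm, add_comm]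
    congr 3; ext Q; simp only [mem_filter, mem_univ, true_and, and_congr_right_iff]
    refine fun b => ⟨fun d f => h.cocl hz.1.1 hz.2 e f d, fun d => ?_⟩
    obtain ⟨z', hz', f⟩ := exh b.1 b.2
    exact cr a.1 a.2 b.1 b.2 hz hz' e f fun n => d (n ▸ f)
  have k2 : #S = 3 := by
    have b1 : #S ≤ 3 := (card_le_card fun z hz => mem_filter.2 ⟨mem_univ z, (mem_filter.1 hz).2.1⟩).trans
      (by have := a5 A; omega : #{z | z ∈ Z (K A) ∧ z ≠ 1} ≤ 3)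
    obtain ⟨D, a⟩ := h.exJ A
    obtain ⟨z, hz, e⟩ := exh a.1 a.2
    refine le_antisymm b1 (Nat.le_of_dvd (card_pos.2 ⟨z, mem_filter.2 ⟨mem_univ _, hz, D, a, e⟩⟩) ?_)
    rw [← h.hc hB]
    refine dvdc _ _ (fun g hg x hx => ?_) fun g hg x hx e => ?_ <;> simp only [S, mem_filter, mem_univ, true_and] at hx ⊢
    · obtain ⟨b, Q, d, e⟩ := hx
      exact ⟨⟨h.Zcj' hg.1 b.1, by simpa using b.2⟩, g • Q,
        ⟨fun f => d.1 (smul_left_cancel g (hg.1.trans f)), h.nadj d.2 hg.1⟩, (cj_smul ..).2 e⟩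
    · by_contra d; exact hx.1.2 (h.fpf hg.1 (fun f => d (h.free f hB hg.2)) hx.1.1.1 e)
  have k3 := dc S {Q | A ≠ Q ∧ ¬ Γ.Adj A Q} fun z Q => z • Q = Q
  rw [sum_const_nat (m := l + mu - k) fun z hz => by rw [filter_filter]; exact Nat.eq_sub_of_add_eq (k1 z hz),
    sum_const_nat (m := 1) fun Q hQ => by
      have a := (mem_filter.1 hQ).2
      obtain ⟨z, hz, e⟩ := exh a.1 a.2
      refine card_eq_one.2 ⟨z, eq_singleton_iff_unique_mem.2 ⟨mem_filter.2 ⟨mem_filter.2 ⟨mem_univ _, hz, Q, a, e⟩, e⟩,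
        fun u hu => uh a.1 a.2 (mem_filter.1 (mem_filter.1 hu).1).2.1 hz (mem_filter.1 hu).2 e⟩⟩, k2, h.hl] at k3
  have k4 := card_filter_add_card_filter_not (s := {Q | A ≠ Q ∧ ¬ Γ.Adj A Q}) (Γ.Adj B)
  rw [filter_filter, filter_filter, h.hl] at k4
  have k5 : #{Q | (A ≠ Q ∧ ¬ Γ.Adj A Q) ∧ ¬ Γ.Adj B Q} ≤ 3 := by
    choose! ζ hζ using fun Q (a : A ≠ Q ∧ ¬ Γ.Adj A Q) => exh a.1 a.2
    refine (card_le_card_of_injOn ζ (t := {z | z ∈ Z (K A) ∧ z ≠ 1}) (fun Q hQ => ?_) fun Q hQ Q' hQ' e => ?_).trans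
      (by have := a5 A; omega) <;> simp only [coe_filter, mem_univ, true_and, Set.mem_ofPred_eq] at *
    · exact (hζ Q hQ.1).1
    by_contra n
    obtain ⟨b, d⟩ := hζ Q hQ.1
    have d' := e ▸ (hζ Q' hQ'.1).2
    have nB : Q ≠ B := fun f => hQ.1.2 (f ▸ hB)
    obtain ⟨u, hu, f⟩ := exh nB fun f => hQ.2 f.symm
    exact hQ'.2 (cr n (h.cocl b.1.1 b.2 d d') nB (fun f => hQ.2 f.symm) ⟨(h.key ek hQ.1.1 hQ.1.2).1 _ b.1 d, b.2⟩ hu d' f
      fun e => b.2 (h.free b.1.1 hB (e ▸ f))).symm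
  have k6 := h.nbI hB
  have k7 := h.par
  have k8 := h.l0
  obtain ⟨m, hm⟩ := h.cdvd
  generalize #{Q | (A ≠ Q ∧ ¬ Γ.Adj A Q) ∧ ¬ Γ.Adj B Q} = a at *
  generalize #{Q | (A ≠ Q ∧ ¬ Γ.Adj A Q) ∧ Γ.Adj B Q} = b at *
  obtain ⟨κ, rfl⟩ : ∃ κ, l = 3 * κ := ⟨l + mu - k, by omega⟩
  rw [(by omega : k - la - 1 = b), (by omega : b = 3 * κ - a), (by omega : mu = k - 2 * κ)] at k7
  zify [(by omega : a ≤ 3 * κ), (by omega : 2 * κ ≤ k)] at k7
  have k9 : (k : ℤ) = 3 * m + 1 := by have := h.k2; omega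
  have : (k : ℤ) * a = 6 * κ ^ 2 := by linarith
  have : (κ : ℤ) ^ 2 % 3 ≠ 2 := by
    rcases (by omega : (κ : ℤ) % 3 = 0 ∨ (κ : ℤ) % 3 = 1 ∨ (κ : ℤ) % 3 = 2) with e | e | e <;>
      simp [sq, Int.mul_emod, e]
  have : 0 < (κ : ℤ) ^ 2 := by have : 0 < κ := by omega
                               positivity
  interval_cases a <;> omega

theorem ceven (e : Even (Nat.card G)) : 2 ∣ c := by
  by_contra d
  have oc : Odd c := Nat.odd_iff.2 (by omega)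
  have ok : Odd k := Nat.odd_iff.2 (by have := h.kodd oc; omega)
  have ol : Odd l := (h.lw ▸ ok.mul oc : Odd (l * w)).of_dvd_nat (Dvd.intro _ rfl)
  rw [h.hG, ← Nat.not_odd_iff_even] at e
  refine e (Odd.mul ?_ (ok.mul oc))
  obtain ⟨a, rfl⟩ := ok; obtain ⟨b, rfl⟩ := ol; exact ⟨a + b + 1, by ring⟩

end Pm

end CF.R3f
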