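import Cfsg.Agent.R3f.C

/-! Rank three groups with a Frobenius subconstituent: counting involutions. -/

set_option autoImplicit false

namespace CF.R3f

open Finset CF.Srg MulAction
open scoped _root_.Classical

variable {G X : Type*} [Group G] [Fintype G] [Fintype X] [MulAction G X] {Γ : SimpleGraph X} {K : X → Subgroup G}
  {A B D P Q R : X} {g x z s t : G}

/-- involution -/
def I2 (s : G) : Prop := s * s = 1 ∧ s ≠ 1

omit [Fintype G] in
theorem I2.cj (g : G) : I2 (g * s * g⁻¹) ↔ I2 s := by simp [I2, conj_mul]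

omit [Fintype G] in
theorem I2.inv (i : I2 s) : s⁻¹ = s := inv_eq_of_mul_eq_one_right i.1

omit [Fintype G] [Fintype X] in
theorem I2.sw (i : I2 s) (e : s • P = Q) : s • Q = P := by rw [← e, ← mul_smul, i.1, one_smul]

theorem exI2 (H : Subgroup G) (e : 2 ∣ Nat.card H) : ∃ t ∈ H, I2 t := by
  obtain ⟨⟨t, a⟩, b⟩ := exists_prime_orderOf_dvd_card' (G := H) 2 e
  rw [Subgroup.orderOf_mk] at b
  exact ⟨t, a, by rw [← sq, ← b, pow_orderOf_eq_one], fun d => by simp [d] at b⟩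

namespace Pm
variable {k c l w y la mu : ℕ} (h : Pm Γ K k c l w y la mu) (ec : 2 ∣ c)
include h ec

theorem ko : Nat.Coprime 2 k := (h.cop.coprime_dvd_right ec).symm

theorem exT (a : Γ.Adj P Q) : ∃ t : G, I2 t ∧ t • P = P ∧ t • Q = Q := by
  obtain ⟨t, b, d⟩ := exI2 _ (h.hc a ▸ ec)
  exact ⟨t, d, b⟩

theorem notK (i : I2 s) : s ∉ K P := fun d =>
  i.2 ((pow_eq_one_iff_of_coprime (h.ko ec)).1 ⟨(sq s).trans i.1, h.powK d⟩)

theorem invK (i : I2 s) (e : s • P = P) (hx : x ∈ K P) : s * x * s⁻¹ = x⁻¹ := by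
  let f : K P → K P := fun x => ⟨x⁻¹ * (s * x * s⁻¹), mul_mem (inv_mem x.2) (h.cj' e x.2)⟩
  have : Function.Injective f := fun a b d => by
    have d : (a : G)⁻¹ * (s * a * s⁻¹) = (b : G)⁻¹ * (s * b * s⁻¹) := congrArg Subtype.val d
    have := h.fpf e (h.notK ec i) (mul_mem b.2 (inv_mem a.2)) (by
      calc s * (b * (a : G)⁻¹) = b * ((b : G)⁻¹ * (s * b * s⁻¹)) * s * (a : G)⁻¹ := by group
        _ = _ := by rw [← d]; group)
    exact Subtype.ext (mul_inv_eq_one.1 this).symm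
  obtain ⟨a, d⟩ := Finite.injective_iff_surjective.1 this ⟨x, hx⟩
  obtain rfl : (a : G)⁻¹ * (s * a * s⁻¹) = x := congrArg Subtype.val d
  calc _ = s * (a : G)⁻¹ * s⁻¹ * (s * s) * a * (s * s)⁻¹ := by group
    _ = _ := by rw [i.1]; group

theorem commK (hx : x ∈ K P) (hz : z ∈ K P) : x * z = z * x := by
  obtain ⟨Q, a⟩ := h.nb P
  obtain ⟨t, i, e, -⟩ := h.exT ec a
  have := h.invK ec i e (mul_mem hx hz)
  rw [← conj_mul, h.invK ec i e hx, h.invK ec i e hz, ← mul_inv_rev, inv_inj] at this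
  exact this.symm

theorem mulK (i : I2 s) (j : I2 t) (e : s • P = P) (f : t • P = P) : s * t ∈ K P := by
  by_contra d
  obtain ⟨x, hx, x1⟩ := h.exK P
  refine x1 (h.fpf (by rw [mul_smul, f, e]) d hx (mul_inv_eq_iff_eq_mul.1 ?_))
  calc _ = s * (t * x * t⁻¹) * s⁻¹ := by group
    _ = _ := by rw [h.invK ec j f hx, h.invK ec i e (inv_mem hx), inv_inv]

theorem uT (i : I2 s) (j : I2 t) (a : Γ.Adj P Q) (e : s • P = P) (f : t • P = P) (e' : s • Q = Q) (f' : t • Q = Q) :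
    s = t :=
  mul_right_cancel ((h.free (h.mulK ec i j e f) a (by rw [mul_smul, f', e'])).trans j.1.symm)

theorem cenT (i : I2 t) (a : Γ.Adj P Q) (e : t • P = P) (f : t • Q = Q) (e' : g • P = P) (f' : g • Q = Q) :
    g * t = t * g := by
  refine mul_inv_eq_iff_eq_mul.1 (h.uT ec ((I2.cj g).2 i) i a ?_ e ?_ f)
  · have := (cj_smul g t P P).2 e; rwa [e'] at this
  · have := (cj_smul g t Q Q).2 f; rwa [f'] at this

theorem cjK (i : I2 s) (j : I2 t) (e : s • P = P) (f : t • P = P) : ∃ x ∈ K P, x * s * x⁻¹ = t := by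
  obtain ⟨Q, a, b⟩ := h.nbfix e (h.notK ec i)
  obtain ⟨R, a', b'⟩ := h.nbfix f (h.notK ec j)
  obtain ⟨x, hx, rfl⟩ := h.reg a a'
  refine ⟨x, hx, h.uT ec ((I2.cj x).2 i) j a' ?_ f ((cj_smul ..).2 b) b'⟩
  have := (cj_smul x s P P).2 e; rwa [h.fix hx] at this

theorem cjD (i : I2 s) (j : I2 t) (e : s • P = P) (f : t • Q = Q) : ∃ g : G, g • P = Q ∧ g * s * g⁻¹ = t := by
  obtain ⟨g, rfl⟩ := h.tr P Q
  obtain ⟨x, hx, d⟩ := h.cjK ec ((I2.cj g).2 i) j ((cj_smul ..).2 e) f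
  exact ⟨x * g, by rw [mul_smul, h.fix hx], by rw [← d]; group⟩

theorem fixN (i : I2 s) (e : s • P = P) : #{Q | Γ.Adj P Q ∧ s • Q = Q} = 1 := by
  obtain ⟨Q, a⟩ := h.nbfix e (h.notK ec i)
  refine card_eq_one.2 ⟨Q, eq_singleton_iff_unique_mem.2 ⟨by simpa using a, fun R hR => ?_⟩⟩
  have b := (mem_filter.1 hR).2
  by_contra d
  exact i.2 (h.two b.1 a.1 d e b.2 a.2)

theorem cardD (P : X) : #{s : G | I2 s ∧ s • P = P} = k := by
  have := dc {s : G | I2 s ∧ s • P = P} {Q | Γ.Adj P Q} fun s Q => s • Q = Q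
  rwa [sum_const_nat (m := 1) fun s hs => by
      rw [filter_filter]; exact h.fixN ec (mem_filter.1 hs).2.1 (mem_filter.1 hs).2.2,
    sum_const_nat (m := 1) fun Q hQ => by
      have a := (mem_filter.1 hQ).2
      obtain ⟨t, i, e, f⟩ := h.exT ec a
      refine card_eq_one.2 ⟨t, eq_singleton_iff_unique_mem.2 ⟨by simpa using ⟨⟨i, e⟩, f⟩, fun s hs => ?_⟩⟩
      simp only [mem_filter, mem_univ, true_and] at hs
      exact h.uT ec hs.1.1 i a hs.1.2 e hs.2 f, mul_one, mul_one, h.deg] at this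

theorem iota (a : P ≠ Q) (b : ¬ Γ.Adj P Q) (i : I2 t) (e : t • P = P) (f : t • Q = Q) :
    #{s : G | (I2 s ∧ s • P = P) ∧ s • Q = Q} = y := by
  rw [← h.hy a b, cd]
  refine card_bij' (fun s _ => t * s) (fun x _ => t * x) (fun s hs => ?_) (fun x hx => ?_)
    (fun s _ => by rw [← mul_assoc, i.1, one_mul]) (fun s _ => by rw [← mul_assoc, i.1, one_mul]) <;>
    simp only [mem_filter, mem_univ, true_and, Subgroup.mem_inf, mem_stabilizer_iff] at *
  · exact ⟨h.mulK ec i hs.1.1 e hs.1.2, by rw [mul_smul, hs.2, f]⟩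
  · refine ⟨⟨⟨?_, fun d => h.notK ec i ((eq_inv_of_mul_eq_one_left d).symm ▸ inv_mem hx.1)⟩,
      by rw [mul_smul, h.fix hx.1, e]⟩, by rw [mul_smul, hx.2, f]⟩
    have := h.invK ec i e hx.1
    rw [i.inv] at this
    rw [← mul_assoc, this, inv_mul_cancel]

end Pm

/-- the set-up with an even complement and the numbers counting involutions -/
structure Ev (Γ : SimpleGraph X) (K : X → Subgroup G) (k c l w y la mu b1 b2 ι j : ℕ) : Prop
    extends Pm Γ K k c l w y la mu where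
  ec : 2 ∣ c
  hb1 : ∀ {P Q}, Γ.Adj P Q → #{s : G | (I2 s ∧ ∃ R : X, s • R = R) ∧ s • P = Q} = b1
  hb2 : ∀ {P Q}, P ≠ Q → ¬ Γ.Adj P Q → #{s : G | (I2 s ∧ ∃ R : X, s • R = R) ∧ s • P = Q} = b2
  hι : ∀ {P Q}, P ≠ Q → ¬ Γ.Adj P Q → #{s : G | (I2 s ∧ s • P = P) ∧ s • Q = Q} = ι
  hj : ∀ {s : G} {P}, I2 s → s • P = P → #{Q | (P ≠ Q ∧ ¬ Γ.Adj P Q) ∧ s • Q = Q} = j
  jk : k * j = l * ι
  main : (k + k * b1 + l * b2) * (2 + j) = (1 + k + l) * k
  al : ∀ {s : G} {P : X}, I2 s → s • P = P → #{Q | Γ.Adj Q (s • Q)} = (2 + j) * b1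
  l1 : b1 ≤ c
  l2 : b2 ≤ w

theorem Pm.ev {k c l w y la mu : ℕ} (h : Pm Γ K k c l w y la mu) (ec : 2 ∣ c) :
    ∃ b1 b2 ι j, Ev Γ K k c l w y la mu b1 b2 ι j := by
  have dv : ∀ g s : G, (∃ R : X, (g * s * g⁻¹) • R = R) ↔ ∃ R : X, s • R = R := fun g s => by
    rw [(MulAction.bijective g).surjective.exists]; simp only [cj_smul]
  obtain ⟨b1, b2, hb1, hb2⟩ := h.const (fun P Q => #{s : G | (I2 s ∧ ∃ R : X, s • R = R) ∧ s • P = Q}) fun g P Q =>
    cnt_conj _ _ g fun x => by simp only [I2.cj, cj_smul, dv]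
  obtain ⟨-, ι, -, hι⟩ := h.const (fun P Q => #{s : G | (I2 s ∧ s • P = P) ∧ s • Q = Q}) fun g P Q =>
    cnt_conj _ _ g fun x => by simp only [I2.cj, cj_smul]
  obtain ⟨A, B, -, a, -⟩ := h.ex
  obtain ⟨D, a1, a2⟩ := h.exJ A
  obtain ⟨t, i, e, -⟩ := h.exT ec a
  set j := #{Q | (A ≠ Q ∧ ¬ Γ.Adj A Q) ∧ t • Q = Q} with hj'
  have hj : ∀ {s : G} {P}, I2 s → s • P = P → #{Q | (P ≠ Q ∧ ¬ Γ.Adj P Q) ∧ s • Q = Q} = j := fun i' e' => by
    obtain ⟨g, rfl, rfl⟩ := h.cjD ec i i' e e'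
    exact cnt_smul _ _ g fun x => by simp only [h.inv, ne_eq, smul_left_cancel_iff, cj_smul]
  have jk := dc {s : G | I2 s ∧ s • A = A} {Q | A ≠ Q ∧ ¬ Γ.Adj A Q} fun s Q => s • Q = Q
  rw [sum_const_nat (m := j) fun s hs => by
      rw [filter_filter]; exact hj (mem_filter.1 hs).2.1 (mem_filter.1 hs).2.2,
    sum_const_nat (m := ι) fun Q hQ => by
      rw [filter_filter]; exact hι (mem_filter.1 hQ).2.1 (mem_filter.1 hQ).2.2, h.cardD ec, h.hl] at jk
  have c0 : ∀ P : X, #{s ∈ ({s | I2 s ∧ ∃ R : X, s • R = R} : Finset G) | s • P = P} = k := fun P => by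
    rw [← h.cardD ec P, filter_filter]; congr 1; ext s; simp only [mem_filter, mem_univ, true_and]
    exact ⟨fun e => ⟨e.1.1, e.2⟩, fun e => ⟨⟨e.1, P, e.2⟩, e.2⟩⟩
  have m1 := dc {s : G | I2 s ∧ ∃ R : X, s • R = R} univ fun s (P : X) => s • P = P
  rw [sum_const_nat (m := 2 + j) fun s hs => by
      obtain ⟨i', P, e'⟩ := (mem_filter.1 hs).2
      have := split Γ P fun Q => if s • Q = Q then 1 else 0
      simp only [← card_filter, filter_filter, e', if_true] at this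
      rw [this, h.fixN ec i' e', hj i' e'], sum_const_nat fun P _ => c0 P, card_univ, h.hn] at m1
  have m2 := card_eq_sum_card_fiberwise (f := fun s => s • A) (s := {s : G | I2 s ∧ ∃ R : X, s • R = R}) (t := univ)
    (by simp)
  rw [split Γ A, c0, sum_const_nat (m := b1) fun Q hQ => by rw [filter_filter]; exact hb1 (mem_filter.1 hQ).2,
    sum_const_nat (m := b2) fun Q hQ => by
      rw [filter_filter]; exact hb2 (mem_filter.1 hQ).2.1 (mem_filter.1 hQ).2.2, h.deg, h.hl] at m2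
  have al : ∀ {s : G} {P : X}, I2 s → s • P = P → #{Q | Γ.Adj Q (s • Q)} = #{Q | Γ.Adj Q (t • Q)} := fun i' e' => by
    obtain ⟨g, rfl, rfl⟩ := h.cjD ec i i' e e'
    exact cnt_smul _ _ g fun x => by rw [mul_smul, mul_smul, inv_smul_smul, h.inv]
  have m3 := dc {s : G | I2 s ∧ ∃ R : X, s • R = R} univ fun s (P : X) => Γ.Adj P (s • P)
  rw [sum_const_nat fun s hs => al (mem_filter.1 hs).2.1 (mem_filter.1 hs).2.2.choose_spec,
    sum_const_nat (m := k * b1) fun P _ => by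
      rw [card_eq_sum_card_fiberwise (f := fun s => s • P) (t := {Q | Γ.Adj P Q}) fun s hs => by
        simpa using (mem_filter.1 hs).2, sum_const_nat (m := b1) fun Q hQ => by
        rw [← hb1 (mem_filter.1 hQ).2, filter_filter, filter_filter]; congr 1; ext s
        simp only [mem_filter, mem_univ, true_and, and_congr_right_iff]
        exact fun _ => ⟨fun e => e.2, fun e => ⟨e ▸ (mem_filter.1 hQ).2, e⟩⟩, h.deg], card_univ, h.hn, ← mul_assoc,
    ← m1, mul_assoc] at m3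
  refine ⟨b1, b2, ι, j, h, ec, hb1, hb2, hι, hj, jk, m2 ▸ m1, fun i' e' => (al i' e').trans
    (Nat.eq_of_mul_eq_mul_left (by have := h.k2; omega) m3), ?_, ?_⟩
  · rw [← hb1 a, ← h.hc a]; exact h.swp _ _ _ fun s hs => ⟨hs.1.1.1, hs.2⟩
  · rw [← hb2 a1 a2, ← h.hw a1 a2]; exact h.swp _ _ _ fun s hs => ⟨hs.1.1.1, hs.2⟩

end CF.R3f
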