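import Cfsg.Agent.R3f.D

/-! Rank three groups with a Frobenius subconstituent: the kernel is not semiregular. -/

set_option autoImplicit false

namespace CF.R3f

open Finset CF.Srg MulAction
open scoped _root_.Classical

variable {G X : Type*} [Group G] [Fintype G] [Fintype X] [MulAction G X] {Γ : SimpleGraph X} {K : X → Subgroup G}
  {A B D P Q R : X} {g x z s t : G}

theorem ar2 {j y m : ℕ} (h1 : 2 * j * m + 1 = 3 * y) (h2 : y + 3 ≤ 3 * j) (h3 : (1 + j) * (2 + j) ≤ 1 + 3 * y + 3 * j) :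
    j = 2 ∧ y = 3 := by
  have : j ≤ 7 := by by_contra d; nlinarith
  interval_cases j <;> omega

namespace Ev
variable {k c l w y la mu b1 b2 ι j : ℕ} (h : Ev Γ K k c l w y la mu b1 b2 ι j)
include h

theorem ι0 : ι = 0 ∨ ι = y := by
  obtain ⟨A, -⟩ := h.ex
  obtain ⟨D, a, b⟩ := h.exJ A
  refine or_iff_not_imp_left.2 fun d => ?_
  rw [← h.hι a b] at d ⊢
  obtain ⟨t, ht⟩ := card_ne_zero.1 d
  obtain ⟨⟨i, e⟩, f⟩ := (mem_filter.1 ht).2
  exact h.iota h.ec a b i e f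

theorem caseY (y1 : y ≠ 1) : k = 9 ∧ l = 6 := by
  have ec := h.ec
  obtain ⟨A, -⟩ := h.ex
  obtain ⟨D, a, b⟩ := h.exJ A
  have Yeq := fun {P Q} => h.Yeq (P := P) (Q := Q) a b y1
  have cenK := fun {g} => h.cenK (g := g) a b y1
  have hY := h.hy a b
  set Y := K A ⊓ stabilizer G D
  let F : Finset X := {P | ∀ x ∈ Y, x • P = P}
  have mF : ∀ {P}, P ∈ F ↔ ∀ x ∈ Y, x • P = P := by simp [F]
  have hA : A ∈ F := mF.2 fun x hx => h.fix hx.1
  have hD : D ∈ F := mF.2 fun x hx => hx.2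
  have iv : ∀ {P s}, P ∈ F → I2 s → s • P = P → ∀ x ∈ Y, s * x * s⁻¹ = x⁻¹ := fun hP i e x hx =>
    h.invK ec i e (h.kof hx.1 (mF.1 hP x hx))
  have nF : ∀ {g : G}, (∀ x ∈ Y, g⁻¹ * x * g ∈ Y) → ∀ Q ∈ F, g • Q ∈ F := fun {g} e Q hQ => mF.2 fun x hx => by
    have := mF.1 hQ _ (e x hx)
    rwa [mul_smul, mul_smul, inv_smul_eq_iff] at this
  have sF : ∀ {P s}, P ∈ F → I2 s → s • P = P → ∀ Q ∈ F, s • Q ∈ F := fun hP i e => nF fun x hx => by
    have := iv hP i e x hx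
    rw [i.inv] at this ⊢
    exact this ▸ inv_mem hx
  have f1 : ∀ {P s}, P ∈ F → I2 s → s • P = P → k * #{Q ∈ F | s • Q = Q} + ι = k + #F * ι := fun {P s} hP i e => by
    have kF : ∀ x ∈ K P, ∀ Q ∈ F, x • Q ∈ F := fun x hx => nF fun z hz => by
      rwa [mul_assoc, h.commK ec (h.kof hz.1 (mF.1 hP z hz)) hx, inv_mul_cancel_left]
    have := dc {s : G | I2 s ∧ s • P = P} F fun s Q => s • Q = Q
    rw [sum_const_nat (m := #{Q ∈ F | s • Q = Q}) fun s' hs => by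
        obtain ⟨x, hx, rfl⟩ := h.cjK ec i (mem_filter.1 hs).2.1 e (mem_filter.1 hs).2.2
        refine (card_bijective _ (MulAction.bijective x) fun Q => ?_).symm
        simp only [mem_filter, cj_smul, and_congr_left_iff]
        exact fun _ => ⟨kF x hx Q, fun d => by simpa using kF _ (inv_mem hx) _ d⟩,
      h.cardD ec, ← add_sum_erase _ _ hP, sum_const_nat (m := ι) fun Q hQ => by
        have n := (mem_erase.1 hQ).1.symm
        rw [filter_filter]; exact h.hι n (Yeq (mF.1 hP) (mF.1 (mem_erase.1 hQ).2) n).1,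
      filter_true_of_mem (s := {s : G | I2 s ∧ s • P = P}) fun s hs => (mem_filter.1 hs).2.2, h.cardD ec] at this
    rw [this, ← card_erase_add_one hP]; ring
  obtain ⟨B, hB⟩ := h.nb A
  obtain ⟨t0, i0, e0, -⟩ := h.exT ec hB
  obtain ⟨f, hf⟩ : ∃ f, f = #{Q ∈ F | t0 • Q = Q} := ⟨_, rfl⟩
  have k2 := h.k2
  have f2 : ∀ {P s}, P ∈ F → I2 s → s • P = P → #{Q ∈ F | s • Q = Q} = f := fun hP i e =>
    Nat.eq_of_mul_eq_mul_left (by omega : 0 < k) (by have := f1 hP i e; have := f1 hA i0 e0; rw [hf]; omega)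
  have f3 := f1 hA i0 e0
  rw [← hf] at f3
  let S : Finset G := {s | I2 s ∧ ∃ P ∈ F, s • P = P}
  have cS : ∀ P ∈ F, #{s ∈ S | s • P = P} = k := fun P hP => by
    rw [← h.cardD ec P, filter_filter]; congr 1; ext s; simp only [mem_filter, mem_univ, true_and]
    exact ⟨fun e => ⟨e.1.1, e.2⟩, fun e => ⟨⟨e.1, P, hP, e.2⟩, e.2⟩⟩
  have s1 := dc S F fun s P => s • P = P
  rw [sum_const_nat (m := f) fun s hs => by
    obtain ⟨i, P, hP, e⟩ := (mem_filter.1 hs).2; exact f2 hP i e, sum_const_nat cS] at s1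
  obtain ⟨N, hN⟩ : ∃ N, #(F.erase A) = N := ⟨_, rfl⟩
  have N1 : 0 < N := hN ▸ card_pos.2 ⟨D, mem_erase.2 ⟨a.symm, hD⟩⟩
  have s2 : ∀ m, (∀ Q ∈ F.erase A, #{s ∈ S | s • A = Q} ≤ m) → #S ≤ k + N * m := fun m hm => by
    rw [card_eq_sum_card_fiberwise (f := fun s => s • A) (t := F) fun s hs => by
      obtain ⟨i, P, hP, e⟩ := (mem_filter.1 hs).2; exact sF hP i e A hA, ← add_sum_erase _ _ hA, cS A hA, ← hN]
    exact Nat.add_le_add_left (sum_le_card_nsmul _ _ _ hm) _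
  have s3 := s2 y fun Q hQ => by
    have n := (mem_erase.1 hQ).1.symm
    rw [← hY, ← (Yeq (mF.1 hA) (mF.1 (mem_erase.1 hQ).2) n).2]
    refine le_coset _ _ fun s hs t ht => ?_
    simp only [S, mem_filter, mem_univ, true_and] at hs ht
    obtain ⟨⟨i, P, hP, e⟩, e'⟩ := hs
    obtain ⟨⟨i', P', hP', d⟩, d'⟩ := ht
    refine ⟨cenK (by rw [mul_smul, d', ← e', inv_smul_smul]) fun x hx => mul_inv_eq_iff_eq_mul.1 ?_,
      by show _ • _ = _; rw [mul_smul, i'.sw d', i.inv, e']⟩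
    calc _ = s⁻¹ * (t * x * t⁻¹) * s⁻¹⁻¹ := by group
      _ = _ := by rw [iv hP' i' d x hx, i.inv, iv hP i e _ (inv_mem hx), inv_inv]
  have s4 := s2 b2 fun Q hQ => by
    have n := (mem_erase.1 hQ).1.symm
    rw [← h.hb2 n (Yeq (mF.1 hA) (mF.1 (mem_erase.1 hQ).2) n).1]
    refine card_le_card fun s hs => ?_
    simp only [S, mem_filter, mem_univ, true_and] at hs ⊢
    obtain ⟨⟨i, P, -, e⟩, e'⟩ := hs
    exact ⟨⟨i, P, e⟩, e'⟩
  rw [← card_erase_add_one hA, hN] at s1 f3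
  have yk := h.yk
  have y0 := h.y0
  rcases h.ι0 with rfl | rfl
  · obtain rfl : f = 1 := Nat.eq_of_mul_eq_mul_left (by omega : 0 < k) (by omega)
    nlinarith
  obtain ⟨ρ, hρ⟩ := h.ydvd
  obtain ⟨u, rfl⟩ : ∃ u, f = u + 1 := ⟨f - 1, by
    have : f ≠ 0 := by rintro rfl; nlinarith
    omega⟩
  obtain rfl : N = u * ρ := Nat.eq_of_mul_eq_mul_left y0 (by rw [hρ] at f3; linarith)
  have r1 : ρ ≤ u + 2 := by
    have : k * (u * ρ + 1) ≤ k * ((u + 1) * (u + 1)) := by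
      have := Nat.mul_le_mul_right (u + 1) s3
      rw [hρ] at *; nlinarith
    have := Nat.le_of_mul_le_mul_left this (by omega)
    by_contra d; nlinarith [Nat.pos_of_mul_pos_right N1]
  obtain ⟨t, ht⟩ := card_pos.1 (h.hι a b ▸ y0)
  obtain ⟨⟨i, e⟩, e'⟩ := (mem_filter.1 ht).2
  let H : Subgroup G := stabilizer G A ⊓ Subgroup.centralizer {t} ⊓ Subgroup.normalizer Y
  have o := orbs H D ({Q ∈ F | t • Q = Q}.erase A) fun Q => by
    simp only [mem_erase, mem_filter]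
    constructor
    · rintro ⟨n, hQ, d⟩
      obtain ⟨d1, d2⟩ := Yeq (mF.1 hA) (mF.1 hQ) n.symm
      obtain ⟨g, g1, g2⟩ := h.tr2 a b n.symm d1
      have i' := (I2.cj g).2 i
      have p1 := (cj_smul g t A A).2 e
      have p2 := (cj_smul g t D D).2 e'
      rw [g1] at p1; rw [g2] at p2
      obtain ⟨x, hx, p3⟩ := h.cjK ec i' i p1 e
      have p4 : x • Q = Q := by
        have : x * x ∈ stabilizer G Q := by
          have := h.invK ec i' p1 (inv_mem hx)
          rw [inv_inv] at this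
          nth_rewrite 2 [← this]
          rw [← mul_assoc, ← mul_assoc, p3]
          exact mul_mem d (inv_mem p2)
        obtain ⟨m, hm⟩ := Nat.coprime_two_left.1 (h.ko ec)
        have := pow_mem this (m + 1)
        rwa [← sq, ← pow_mul, (by omega : 2 * (m + 1) = k + 1), pow_succ, h.powK hx, one_mul] at this
      have p5 : (x * g) • A = A := by rw [mul_smul, g1, h.fix hx]
      have p6 : (x * g) • D = Q := by rw [mul_smul, g2, p4]
      refine ⟨x * g, ⟨⟨p5, Subgroup.mem_centralizer_singleton_iff.2 (mul_inv_eq_iff_eq_mul.1 (by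
          calc _ = x * (g * t * g⁻¹) * x⁻¹ := by group
            _ = t := p3))⟩,
        Subgroup.mem_normalizer_fintype fun z hz => d2.le ⟨h.cj' p5 hz.1, ?_⟩⟩, p6⟩
      have := (cj_smul (x * g) z D D).2 hz.2
      rwa [p6] at this
    · rintro ⟨g, ⟨⟨g1, g2⟩, g3⟩, rfl⟩
      refine ⟨fun d => a (smul_left_cancel g (g1.trans d.symm)), nF (fun x hx => ?_) D hD, by
        rw [← mul_smul, ← Subgroup.mem_centralizer_singleton_iff.1 g2, mul_smul, e']⟩
      exact (Subgroup.mem_normalizer_iff''.1 g3 x).1 hx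
  rw [card_erase_of_mem (s := {Q ∈ F | t • Q = Q}) (mem_filter.2 ⟨hA, e⟩), f2 hA i e, Nat.add_sub_cancel] at o
  have o1 : 2 ≤ Nat.card (H ⊓ stabilizer G D : Subgroup G) := by
    rw [cd]
    refine one_lt_card.2 ⟨1, by simp, t, mem_filter.2 ⟨mem_univ _, ⟨⟨e, ?_⟩, ?_⟩, e'⟩, i.2.symm⟩
    · exact Subgroup.mem_centralizer_singleton_iff.2 rfl
    · exact Subgroup.mem_normalizer_fintype fun z hz => iv hA i e z hz ▸ inv_mem hz
  obtain ⟨B, hB, fB⟩ := h.nbfix e (h.notK ec i)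
  have hH : H ≤ R3f.s2 G A B := fun g hg => ⟨hg.1.1, card_le_one.1 (h.fixN ec i e).le _ (mem_filter.2 ⟨mem_univ _,
    h.adj hB hg.1.1, by rw [← mul_smul, ← Subgroup.mem_centralizer_singleton_iff.1 hg.1.2, mul_smul, fB]⟩) _
    (mem_filter.2 ⟨mem_univ _, hB, fB⟩)⟩
  have o2 := dvdc H {x | x ∈ K A ∧ x ∉ Y} (fun g hg x hx => by
      simp only [mem_filter, mem_univ, true_and] at hx ⊢
      exact ⟨h.cj' hg.1.1 hx.1, mt (Subgroup.mem_normalizer_iff.1 hg.2 x).2 hx.2⟩) fun g hg x hx d => by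
    have hx := (mem_filter.1 hx).2
    by_contra n
    exact hx.2 (h.fpf hg.1.1 (fun f => n (h.free f hB (hH hg).2)) hx.1 d ▸ one_mem _)
  have o3 := card_filter_add_card_filter_not (s := {x : G | x ∈ K A}) (· ∈ Y)
  rw [filter_filter, filter_filter, ← cd, h.hk, filter_congr (q := (· ∈ Y)) fun x _ => ⟨fun d => d.2, fun d => ⟨d.1, d⟩⟩,
    ← cd, hY] at o3
  have r2 : 2 ≤ ρ := by by_contra d; interval_cases ρ <;> omega
  rw [(by rw [Nat.mul_sub_one]; omega : #{x | x ∈ K A ∧ x ∉ Y} = ι * (ρ - 1))] at o2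
  have o4 := Nat.le_of_dvd (by omega) (((h.cop.coprime_dvd_left h.ydvd).coprime_dvd_right
    (h.hc hB ▸ Subgroup.card_dvd_of_le hH)).symm.dvd_of_dvd_mul_left o2)
  obtain rfl : u = 1 := by
    have := Nat.pos_of_mul_pos_right N1
    have := Nat.mul_le_mul_left u o1
    omega
  obtain rfl : ρ = 3 := by omega
  have w1 : 2 * ι ∣ w := by
    rw [← h.hw a b]
    exact Nat.Coprime.mul_dvd_of_dvd_of_dvd ((h.ko ec).coprime_dvd_right h.ydvd)
      (orderOf_eq_prime ((sq t).trans i.1) i.2 ▸ Subgroup.orderOf_dvd_natCard _ (⟨e, e'⟩ : t ∈ R3f.s2 G A D))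
      (hY ▸ Subgroup.card_dvd_of_le fun x hx => ⟨h.fix hx.1, hx.2⟩)
  have mu0 := h.mu0
  have muk := h.muk
  have m1 : mu = 2 * ι := by
    obtain ⟨m, rfl⟩ := w1.trans h.wmu
    have : m ≠ 0 := by rintro rfl; omega
    have : ¬ 2 ≤ m := fun d => by nlinarith
    rw [(by omega : m = 1), mul_one]
  have w2 : w = 2 * ι := le_antisymm (m1 ▸ Nat.le_of_dvd mu0 h.wmu) (Nat.le_of_dvd h.w0 w1)
  have l1 : l = 3 * j := Nat.eq_of_mul_eq_mul_right y0 (by have := h.jk; rw [hρ] at this; linarith)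
  have c1 : c = 2 * j := Nat.eq_of_mul_eq_mul_left (by omega : 0 < k) (by rw [← h.lw, w2, l1, hρ]; ring)
  have n1 := h.nbJ a b
  have n2 : #{R | (A ≠ R ∧ ¬ Γ.Adj A R) ∧ Γ.Adj D R} + #(F.erase A) ≤ l := by
    rw [← h.hl A, ← card_union_of_disjoint (disjoint_left.2 fun R d1 d2 => by
      have := (mem_filter.1 d1).2.2
      exact (Yeq (mF.1 hD) (mF.1 (mem_erase.1 d2).2) this.ne).1 this)]
    refine card_le_card (union_subset (fun R d => mem_filter.2 ⟨mem_univ _, (mem_filter.1 d).2.1⟩) fun R d => ?_)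
    have n := (mem_erase.1 d).1.symm
    exact mem_filter.2 ⟨mem_univ _, n, (Yeq (mF.1 hA) (mF.1 (mem_erase.1 d).2) n).1⟩
  have n3 : (1 + j) * (2 + j) ≤ 1 + k + l := Nat.le_of_mul_le_mul_right (by
    rw [← h.main]
    have : l * ι ≤ l * b2 := Nat.mul_le_mul_left _ (by omega)
    have := Nat.mul_le_mul_right (2 + j) (show k * (1 + j) ≤ k + k * b1 + l * b2 by have := h.jk; nlinarith)
    linarith) (by omega : 0 < k)
  obtain ⟨m, hm⟩ := h.cdvd
  have := ar2 (j := j) (y := ι) (m := m) (by rw [← c1]; omega) (by omega) (by omega)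
  omega

end Ev

end CF.R3f
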