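import Cfsg.Agent.R3f.E

/-! Rank three groups with a Frobenius subconstituent: semiregular kernel, odd stabilizer. -/

set_option autoImplicit false

namespace CF.R3f

open Finset CF.Srg MulAction
open Subgroup (zpowers)
open scoped _root_.Classical

variable {G X : Type*} [Group G] [Fintype G] [Fintype X] [MulAction G X] {Γ : SimpleGraph X} {K : X → Subgroup G}
  {A B D P Q R : X} {g x z s t : G}

theorem ar3 {u w k b1 b2 : ℕ} (h1 : 2 * (1 + b1 + u * b2) = 1 + k + k * u) (h2 : b1 ≤ u * w) (h3 : b2 ≤ w)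
    (h4 : u * w ∣ k - 1) (h5 : u * w + 1 ≤ k) (u2 : 2 ≤ u) (ue : 2 ∣ u) : u = 2 ∧ k = 2 * w + 1 := by
  have := Nat.mul_le_mul_left u h3
  have := Nat.mul_le_mul_right u h5
  obtain rfl : u = 2 := by
    by_contra d
    have : 4 ≤ u := by omega
    nlinarith
  obtain ⟨m, hm⟩ := h4
  have : m ≠ 0 := by rintro rfl; omega
  have : ¬ 2 ≤ m := fun d => by have := Nat.mul_le_mul_left (2 * w) d; omega
  obtain rfl : m = 1 := by omega
  omega

namespace Ev
variable {k c l w la mu b1 b2 ι j : ℕ}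

theorem orbK (h : Ev Γ K k c l w 1 la mu b1 b2 ι j) (a : A ≠ D) : #{z | ∃ x ∈ K A, x • D = z} = k := by
  have o := orbs (K A) D {z | ∃ g ∈ K A, g • D = z} (by simp)
  rwa [(Subgroup.card_eq_one (H := K A ⊓ stabilizer G D)).2 (eq_bot_iff.2 fun x hx => h.free1 rfl hx.1 a hx.2), mul_one, h.hk] at o

theorem case0 (h : Ev Γ K k c l w 1 la mu b1 b2 0 j) : k = 3 ∧ l = 6 := by
  have ec := h.ec
  obtain ⟨u, rfl⟩ := h.kl rfl
  have k2 := h.k2
  obtain rfl : c = u * w := (Nat.eq_of_mul_eq_mul_left (by omega : 0 < k) (by rw [← h.lw]; ring))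
  obtain rfl : j = 0 := by have := h.jk; simp only [mul_zero, mul_eq_zero] at this; omega
  have n0 : ∀ {P Q : X} {s : G}, P ≠ Q → ¬ Γ.Adj P Q → I2 s → s • P = P → s • Q ≠ Q := fun a b i e f =>
    filter_eq_empty_iff.1 (card_eq_zero.1 (h.hι a b)) (mem_univ _) ⟨⟨i, e⟩, f⟩
  obtain ⟨A, -⟩ := h.ex
  obtain ⟨D, a, b⟩ := h.exJ A
  have ow : Nat.Coprime 2 w := (Nat.Prime.coprime_iff_not_dvd Nat.prime_two).2 fun d => by
    obtain ⟨t, e, i⟩ := exI2 _ (h.hw a b ▸ d)
    exact n0 a b i e.1 e.2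
  have ue := ow.dvd_of_dvd_mul_right ec
  have mm : 2 * (1 + b1 + u * b2) = 1 + k + k * u :=
    Nat.eq_of_mul_eq_mul_right (by omega : 0 < k) (by rw [← h.main]; ring)
  obtain ⟨rfl, rfl⟩ := ar3 mm h.l1 h.l2 h.cdvd h.ck (Nat.le_of_dvd (Nat.pos_of_mul_pos_left h.l0) ue) ue
  by_cases w1 : w = 1
  · subst w1; exact ⟨rfl, rfl⟩
  obtain ⟨y, ⟨e1, e2⟩, y1⟩ := (Subgroup.nontrivial_iff_exists_ne_one _).1 (Finite.one_lt_card_iff_nontrivial.1
    (show 1 < Nat.card (s2 G A D) by have := h.w0; rw [h.hw a b]; omega))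
  have yw : y ^ w = 1 := by
    rw [← h.hw a b]; exact congrArg Subtype.val (pow_card_eq_one' (x := (⟨y, e1, e2⟩ : s2 G A D)))
  have n := fun f => y1 (h.free1 rfl f a e2)
  obtain ⟨B, hB, e3⟩ := h.nbfix e1 n
  obtain ⟨D', hD', e4⟩ := h.nbfix e2 fun f => y1 (h.free1 rfl f a.symm e1)
  obtain ⟨t, i, t1, t2⟩ := h.exT ec hB
  obtain ⟨σ, i', σ1, σ2⟩ := h.exT ec hD'
  have c1 := h.cenT ec i hB t1 t2 e1 e3
  have c2 := h.cenT ec i' hD' σ1 σ2 e2 e4
  have a' : A ≠ t • D := fun e => a (smul_left_cancel t (t1.trans e))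
  have sub : ∀ D, A ≠ D → ¬ Γ.Adj A D → ({z | ∃ x ∈ K A, x • D = z} : Finset X) ⊆ ({Q | A ≠ Q ∧ ¬ Γ.Adj A Q} : Finset X) :=
    fun D a b z hz => by
      obtain ⟨x, hx, rfl⟩ := (mem_filter.1 hz).2
      exact mem_filter.2 ⟨mem_univ _, fun e => a (smul_left_cancel x ((h.fix hx).trans e)), h.nadj b (h.fix hx)⟩
  have cov := eq_of_subset_of_card_le (union_subset (sub D a b) (sub _ a' (h.nadj b t1))) (by
    rw [card_union_of_disjoint (disjoint_left.2 fun z d d' => by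
      obtain ⟨x, hx, rfl⟩ := (mem_filter.1 d).2
      obtain ⟨x', hx', f⟩ := (mem_filter.1 d').2
      have hz := mul_mem (inv_mem hx) hx'
      refine n0 a b (s := x⁻¹ * x' * t) ⟨?_, fun d => h.notK ec i (eq_inv_of_mul_eq_one_right d ▸ inv_mem hz)⟩
        (by rw [mul_smul, t1, h.fix hz]) (by rw [mul_smul, mul_smul, f, inv_smul_smul])
      have := h.invK ec i t1 hz
      rw [i.inv] at this
      rw [mul_assoc, ← mul_assoc t, this, mul_inv_cancel]), h.orbK a, h.orbK a', h.hl]; omega)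
  have fx : ∀ Q, y • Q = Q → Q = A ∨ Q = B ∨ Q = D ∨ Q = t • D := fun Q e => by
    by_cases d1 : A = Q
    · exact Or.inl d1.symm
    by_cases d2 : Γ.Adj A Q
    · by_contra d; push Not at d; exact y1 (h.two hB d2 d.2.1.symm e1 e3 e)
    rcases mem_union.1 (cov.ge (mem_filter.2 ⟨mem_univ Q, d1, d2⟩)) with d | d <;>
      obtain ⟨x, hx, rfl⟩ := (mem_filter.1 d).2
    · simp [h.one1 rfl a e1 n e2 hx e]
    · simp [h.one1 rfl a' e1 n (by rw [← mul_smul, c1, mul_smul, e2]) hx e]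
  obtain rfl : D' = t • D := by
    rcases fx D' e4 with rfl | rfl | rfl | d
    exacts [absurd hD'.symm b, absurd (h.two hB.symm hD'.symm a e3 e1 e2) y1, absurd hD' Γ.irrefl, d]
  have σ3 : σ • A = B := by
    rcases fx (σ • A) (by rw [← mul_smul, c2, mul_smul, e1]) with d | d | d | d
    exacts [absurd d (n0 a.symm (fun f => b f.symm) i' σ1), d, absurd (smul_left_cancel σ (d.trans σ1.symm)) a,
      absurd (smul_left_cancel σ (d.trans σ2.symm)) a']
  let I : Finset G := {x | x ∈ s2 G A B ∧ σ * x * σ⁻¹ = x⁻¹}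
  have q1 : b1 ≤ #I := by
    rw [← h.hb1 hB]
    refine card_le_card_of_injOn (σ * ·) (fun s hs => ?_) (mul_right_injective σ).injOn
    obtain ⟨⟨i2, -⟩, e⟩ := (mem_filter.1 hs).2
    refine mem_filter.2 ⟨mem_univ _, ⟨?_, ?_⟩, by rw [← mul_assoc, i'.1, one_mul, mul_inv_rev, i2.inv]⟩
    · show _ • _ = _; rw [mul_smul, e, i'.sw σ3]
    · show _ • _ = _; rw [mul_smul, i2.sw e, σ3]
  have q2 : ∀ z ∈ zpowers y, z ≠ 1 → ∀ x ∈ I, x * z ∉ I := fun z hz z1 x hx hx' => by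
    obtain ⟨x1, x2⟩ := (mem_filter.1 hx).2
    obtain ⟨m, hm⟩ := Nat.coprime_two_left.1 ow
    subst hm
    obtain ⟨r, hr⟩ := hz
    have cz : Commute z σ := hr ▸ Commute.zpow_left c2 _
    have ct : Commute z t := hr ▸ Commute.zpow_left c1 _
    have zw : z ^ (2 * m + 1) = 1 := by rw [← hr, ← zpow_natCast, ← zpow_mul, mul_comm, zpow_mul, zpow_natCast, yw, one_zpow]
    have x3 := (mem_filter.1 hx').2.2
    rw [← conj_mul, x2, ← cz.eq, mul_inv_cancel_right, mul_inv_rev] at x3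
    have x4 : Commute (x⁻¹ * x⁻¹) z := SemiconjBy.mul_left (by simpa using SemiconjBy.inv_right x3) x3
    have x5 : Commute (x⁻¹ ^ (2 * m + 1)) z := by
      have d := pow_mem (inv_mem x1) (2 * m + 1)
      by_cases d1 : x⁻¹ ^ (2 * m + 1) = 1
      · rw [d1]; exact Commute.one_left _
      rw [h.uT ec ⟨by
        rw [← pow_add, ← two_mul, ← h.hc hB]
        exact congrArg Subtype.val (pow_card_eq_one' (x := (⟨x⁻¹, inv_mem x1⟩ : s2 G A B))), d1⟩ i hB d.1 t1 d.2 t2]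
      exact ct.symm
    rw [pow_succ, pow_mul, sq] at x5
    have x6 := (x4.pow_left m).inv_left.mul_left x5
    rw [inv_mul_cancel_left, commute_iff_eq, x3, mul_left_inj] at x6
    exact z1 ((pow_eq_one_iff_of_coprime ow).1 ⟨by rw [sq]; exact inv_eq_iff_mul_eq_one.1 x6, zw⟩)
  have hy : y ∈ s2 G A B := ⟨e1, e3⟩
  have q3 : #((I ∪ I.image (· * y)) ∪ I.image (· * y⁻¹)) ≤ 2 * w := by
    rw [← h.hc hB, cd]
    refine card_le_card fun x hx => mem_filter.2 ⟨mem_univ _, ?_⟩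
    simp only [I, mem_union, mem_image, mem_filter, mem_univ, true_and] at hx
    rcases hx with (d | ⟨x, d, rfl⟩) | ⟨x, d, rfl⟩
    exacts [d.1, mul_mem d.1 hy, mul_mem d.1 (inv_mem hy)]
  have my := Subgroup.mem_zpowers y
  rw [card_union_of_disjoint (disjoint_left.2 fun z d d' => by
      obtain ⟨x, hx, rfl⟩ := mem_image.1 d'
      rcases mem_union.1 d with d | d
      · exact q2 _ (inv_mem my) (inv_ne_one.2 y1) x hx d
      · obtain ⟨x', hx', f⟩ := mem_image.1 d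
        exact q2 _ (mul_mem my my) (fun f => y1 ((pow_eq_one_iff_of_coprime ow).1 ⟨(sq y).trans f, yw⟩)) x' hx'
          (by rwa [← mul_assoc, f, inv_mul_cancel_right])),
    card_union_of_disjoint (disjoint_left.2 fun z d d' => by
      obtain ⟨x, hx, rfl⟩ := mem_image.1 d'; exact q2 _ my y1 x hx d),
    card_image_of_injective _ (mul_left_injective _), card_image_of_injective _ (mul_left_injective _)] at q3
  have := h.l2
  omega

end Ev

end CF.R3f
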