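import Cfsg.Agent.R3f.F

/-! Rank three groups with a Frobenius subconstituent: semiregular kernel, even stabilizer. -/

set_option autoImplicit false

namespace CF.R3f

open Finset CF.Srg MulAction
open scoped _root_.Classical

variable {G X : Type*} [Group G] [Fintype G] [Fintype X] [MulAction G X] {Γ : SimpleGraph X} {K : X → Subgroup G}
  {A B D P Q R : X} {g x z s t : G}

namespace Ev
variable {k c l w la mu b1 b2 j : ℕ} (h : Ev Γ K k c l w 1 la mu b1 b2 1 j)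
include h

theorem exS (a : P ≠ Q) : ∃ t : G, I2 t ∧ t • P = P ∧ t • Q = Q := by
  by_cases b : Γ.Adj P Q
  · exact h.exT h.ec b
  obtain ⟨t, ht⟩ := card_pos.1 (h.hι a b ▸ Nat.one_pos)
  exact ⟨t, and_assoc.1 (mem_filter.1 ht).2⟩

theorem jeven : Even j := by
  obtain ⟨A, B, -, a, -⟩ := h.ex
  obtain ⟨t, i, e, -⟩ := h.exT h.ec a
  have := split Γ A fun Q => if t • Q = Q then 1 else 0
  simp only [← card_filter, filter_filter, e, if_true] at this
  rw [h.fixN h.ec i e, h.hj i e] at this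
  choose f hf using fun P (d : P ∈ ({P | t • P = P} : Finset X)) => h.nbfix (mem_filter.1 d).2 (h.notK h.ec i)
  have s := sum_involution (s := {P : X | t • P = P}) (f := fun _ => (1 : ZMod 2)) f (fun _ _ => rfl)
    (fun P d _ => (hf P d).1.ne') (fun P d => mem_filter.2 ⟨mem_univ _, (hf P d).2⟩) fun P d =>
      card_le_one.1 (h.fixN h.ec i (hf P d).2).le _ (mem_filter.2 ⟨mem_univ _, hf _ _⟩) _
        (mem_filter.2 ⟨mem_univ _, (hf P d).1.symm, (mem_filter.1 d).2⟩)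
  rw [sum_const, nsmul_eq_mul, mul_one, ZMod.natCast_eq_zero_iff_even, this] at s
  obtain ⟨m, hm⟩ := s
  exact ⟨m - 1, by omega⟩

theorem half (d : 3 * w < 4 * b2 ∨ w = 4 ∧ b2 = 3) : b2 = w := by
  obtain ⟨A, -⟩ := h.ex
  obtain ⟨D, a, b⟩ := h.exJ A
  have hb := h.hb2 a b
  have hw := h.hw a b
  set S : Finset G := {s | (I2 s ∧ ∃ R : X, s • R = R) ∧ s • A = D}
  set E := s2 G A D
  have mS : ∀ {s}, s ∈ S ↔ (I2 s ∧ ∃ R : X, s • R = R) ∧ s • A = D := by simp [S]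
  obtain ⟨s, hs⟩ := card_pos.1 (show 0 < #S by omega)
  have hs' := mS.1 hs
  have mE : ∀ t ∈ S, s * t ∈ E := fun t ht => ⟨by show _ • _ = _; rw [mul_smul, (mS.1 ht).2, hs'.1.1.sw hs'.2],
    by show _ • _ = _; rw [mul_smul, (mS.1 ht).1.1.sw (mS.1 ht).2, hs'.2]⟩
  have q1 : b2 ≤ #{x | x ∈ E ∧ s * x * s⁻¹ = x⁻¹} := by
    rw [← hb]
    exact card_le_card_of_injOn (s * ·) (fun t ht => mem_filter.2 ⟨mem_univ _, mE t ht, by
      rw [← mul_assoc, hs'.1.1.1, one_mul, mul_inv_rev, (mS.1 ht).1.1.inv]⟩) (mul_right_injective s).injOn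
  have cm : ∀ x ∈ E, ∀ y ∈ E, x * y = y * x := by
    rcases d with d | d
    · exact three4 (s := s) (by omega)
    · haveI : Fact (Nat.Prime 2) := ⟨Nat.prime_two⟩
      exact fun x hx y hy => congrArg Subtype.val
        ((IsPGroup.isMulCommutative_of_card_eq_prime_sq (p := 2) (G := E) (by omega)).1.1 ⟨x, hx⟩ ⟨y, hy⟩)
  let I : Subgroup G :=
    { carrier := {x | x ∈ E ∧ s * x * s⁻¹ = x⁻¹}
      one_mem' := ⟨one_mem _, by simp⟩
      mul_mem' := fun {x y} hx hy => ⟨mul_mem hx.1 hy.1, by rw [← conj_mul, hx.2, hy.2, cm x hx.1 y hy.1, mul_inv_rev,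
        cm _ (inv_mem hx.1) _ (inv_mem hy.1), cm _ (inv_mem hy.1) _ (inv_mem hx.1)]⟩
      inv_mem' := fun {x} hx => ⟨inv_mem hx.1, by rw [← conj_inv, hx.2]⟩ }
  have q2 : I = E := by
    have q : b2 ≤ Nat.card I := by rw [cd]; convert q1 using 3; rfl
    obtain ⟨m, hm⟩ := Subgroup.card_dvd_of_le (show I ≤ E from fun _ e => e.1)
    have : m = 1 := by
      by_contra n
      have : m ≠ 0 := by rintro rfl; have := h.w0; omega
      have := Nat.mul_le_mul_left (Nat.card I) (by omega : 2 ≤ m)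
      omega
    exact Subgroup.eq_of_le_of_card_ge (fun _ e => e.1) (by rw [hm, this, mul_one])
  have cl : ∀ t ∈ S, #{z | ∃ g ∈ E, g * t * g⁻¹ = z} * 2 = w := fun t ht => by
    rw [← hw, ← orb E (fun g x => g * x * g⁻¹) (by simp) (fun _ _ _ => by group) t {z | ∃ g ∈ E, g * t * g⁻¹ = z} (by simp)]
    congr 1
    have := Pm.Z1 (E ⊓ Subgroup.centralizer {t})
    rw [cd, filter_congr (q := fun x => (I2 x ∧ x • A = A) ∧ x • D = D) fun x _ => ?_, h.hι a b] at this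
    · simpa only [Subgroup.mem_inf, Subgroup.mem_centralizer_singleton_iff, mul_inv_eq_iff_eq_mul] using this
    have key : x ∈ E → (x * t = t * x ↔ x * x = 1) := fun hx => by
      have e1 : t = s * (s * t) := by rw [← mul_assoc, hs'.1.1.1, one_mul]
      have e2 : t * x * t⁻¹ = x⁻¹ := by
        rw [e1, ← (q2.ge hx).2, mul_assoc s, ← cm x hx _ (mE t ht)]; group
      rw [eq_comm, ← mul_inv_eq_iff_eq_mul, e2, inv_eq_iff_mul_eq_one]
    rw [Subgroup.mem_inf, Subgroup.mem_centralizer_singleton_iff]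
    exact ⟨fun e => ⟨⟨⟨(key e.1.1).1 e.1.2, e.2⟩, e.1.1.1⟩, e.1.1.2⟩,
      fun e => ⟨⟨⟨e.1.2, e.2⟩, (key ⟨e.1.2, e.2⟩).2 e.1.1.1⟩, e.1.1.2⟩⟩
  have sub : ∀ t ∈ S, ({z | ∃ g ∈ E, g * t * g⁻¹ = z} : Finset G) ⊆ S := fun t ht z hz => by
    obtain ⟨g, hg, rfl⟩ := (mem_filter.1 hz).2
    obtain ⟨⟨i, R, e⟩, f⟩ := mS.1 ht
    have := (cj_smul g t A D).2 f
    rw [hg.1, hg.2] at this
    exact mS.2 ⟨⟨(I2.cj g).2 i, _, (cj_smul g t R R).2 e⟩, this⟩
  have c1 := cl s hs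
  obtain ⟨t, ht, n⟩ := exists_mem_notMem_of_card_lt_card (s := {z | ∃ g ∈ E, g * s * g⁻¹ = z}) (t := S) (by omega)
  have := card_le_card (union_subset (sub s hs) (sub t ht))
  rw [card_union_of_disjoint (disjoint_left.2 fun z d d' => by
    obtain ⟨g, hg, rfl⟩ := (mem_filter.1 d).2
    obtain ⟨g', hg', e⟩ := (mem_filter.1 d').2
    exact n (mem_filter.2 ⟨mem_univ _, g'⁻¹ * g, mul_mem (inv_mem hg') hg, by
      rw [← mul_right_inj g', ← mul_left_inj g'⁻¹, e]; group⟩))] at this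
  have := cl t ht
  have := h.l2
  omega

theorem case1 : k = 5 ∧ l = 10 := by
  have ec := h.ec
  obtain ⟨u, rfl⟩ := h.kl rfl
  have k2 := h.k2
  obtain rfl : c = u * w := (Nat.eq_of_mul_eq_mul_left (by omega : 0 < k) (by rw [← h.lw]; ring))
  obtain rfl : u = j := (Nat.eq_of_mul_eq_mul_left (by omega : 0 < k) (by rw [h.jk]; ring))
  have u0 := Nat.pos_of_mul_pos_left h.l0
  obtain ⟨A, -⟩ := h.ex
  obtain ⟨D, a, b⟩ := h.exJ A
  have we : 2 ∣ w := by
    obtain ⟨t, i, e⟩ := h.exS a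
    exact h.hw a b ▸ orderOf_eq_prime ((sq t).trans i.1) i.2 ▸ Subgroup.orderOf_dvd_natCard _ (e : t ∈ s2 G A D)
  obtain ⟨l', rfl⟩ := h.cla
  obtain ⟨m, rfl⟩ := h.wmu
  have : Nonempty X := ⟨A⟩
  have lt := h.sr.lt A (by omega)
  have p1 : k - u * w * l' - 1 = u * (w * m) := Nat.eq_of_mul_eq_mul_left (by omega : 0 < k) (by rw [h.par]; ring)
  have hk : k = u * w * (l' + m) + 1 := by rw [mul_add, mul_assoc u w m]; omega
  have mm : (1 + b1 + u * b2) * (2 + u) = 1 + k + k * u :=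
    Nat.eq_of_mul_eq_mul_right (by omega : 0 < k) (by rw [← h.main]; ring)
  have nbK : ∀ {P Q} (p : X → Prop), Γ.Adj P Q → #{x : G | x ∈ K P ∧ p (x • Q)} = #{R | Γ.Adj P R ∧ p R} := fun p e =>
    card_bij (fun x _ => x • _) (fun x hx => by
      simp only [mem_filter, mem_univ, true_and] at hx ⊢; exact ⟨h.adj e (h.fix hx.1), hx.2⟩) (fun x hx z hz d => by
      have := h.free (mul_mem (inv_mem (mem_filter.1 hz).2.1) (mem_filter.1 hx).2.1) e (by
        rw [mul_smul, d, inv_smul_smul])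
      exact (inv_mul_eq_one.1 this).symm) fun R hR => by
      obtain ⟨x, hx, rfl⟩ := h.reg e (mem_filter.1 hR).2.1
      exact ⟨x, mem_filter.2 ⟨mem_univ _, hx, (mem_filter.1 hR).2.2⟩, rfl⟩
  obtain ⟨-, v, -, hv⟩ := h.const (fun P Q => #{x : G | x ∈ K P ∧ Γ.Adj Q (x • Q)}) fun g P Q =>
    cnt_conj _ _ g fun x => by rw [h.cj, mul_smul, mul_smul, inv_smul_smul, h.inv]
  have R2 := dc {s : G | I2 s ∧ s • A = A} univ fun s Q => Γ.Adj Q (s • Q)
  have tK : ∀ Q, A ≠ Q → #{s ∈ ({s | I2 s ∧ s • A = A} : Finset G) | Γ.Adj Q (s • Q)} =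
      #{x : G | x ∈ K A ∧ Γ.Adj Q (x • Q)} := fun Q n => by
    obtain ⟨t, i, e, f⟩ := h.exS n
    refine card_bij' (fun s _ => s * t) (fun s _ => s * t) (fun s hs => ?_) (fun x hx => ?_)
      (fun s _ => by rw [mul_assoc, i.1, mul_one]) (fun s _ => by rw [mul_assoc, i.1, mul_one])
    · simp only [mem_filter, mem_univ, true_and, mul_smul, e, f] at hs ⊢
      exact ⟨h.mulK ec hs.1.1 i hs.1.2 e, hs.2⟩
    · simp only [mem_filter, mem_univ, true_and, mul_smul, e, f] at hx ⊢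
      refine ⟨⟨⟨?_, fun d => h.notK ec i (eq_inv_of_mul_eq_one_right d ▸ inv_mem hx.1)⟩, h.fix hx.1⟩, hx.2⟩
      have := h.invK ec i e hx.1
      rw [i.inv] at this
      rw [mul_assoc, ← mul_assoc t, this, mul_inv_cancel]
  rw [sum_const_nat fun s hs => h.al (mem_filter.1 hs).2.1 (mem_filter.1 hs).2.2, h.cardD ec, split Γ A,
    card_eq_zero.2 (filter_eq_empty_iff.2 fun s hs => by rw [(mem_filter.1 hs).2.2]; exact Γ.irrefl),
    sum_const_nat (m := u * w * l') fun Q hQ => by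
      have e := (mem_filter.1 hQ).2
      rw [tK Q e.ne, ← h.sr.adj' e]; convert nbK (Γ.Adj Q) e,
    sum_const_nat (m := v) fun Q hQ => by
      have e := (mem_filter.1 hQ).2
      rw [tK Q e.1, hv e.1 e.2], h.deg, h.hl] at R2
  have R2' : (2 + u) * b1 = u * w * l' + u * v := Nat.eq_of_mul_eq_mul_left (by omega : 0 < k) (by rw [R2]; ring)
  obtain ⟨ν, rfl⟩ : w ∣ v := by
    rw [← hv a b, ← h.hw a b]
    refine dvdc _ _ (fun g hg x hx => ?_) fun g hg x hx e => ?_ <;> simp only [mem_filter, mem_univ, true_and] at hx ⊢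
    · refine ⟨h.cj' hg.1 hx.1, ?_⟩
      have := (h.inv g _ _).2 hx.2
      rwa [hg.2, ← (inv_smul_eq_iff.2 hg.2.symm : g⁻¹ • D = D), smul_smul, smul_smul,
        (inv_smul_eq_iff.2 hg.2.symm : g⁻¹ • D = D)] at this
    · by_contra n
      rw [h.fpf hg.1 (fun f => n (h.free1 rfl f a hg.2)) hx.1 e, one_smul] at hx
      exact Γ.irrefl hx.2
  have PI := dc {x : G | x ∈ K A ∧ x ≠ 1} univ fun x R => Γ.Adj D R ∧ Γ.Adj (x • D) R
  have v1 : #{x ∈ ({x | x ∈ K A ∧ x ≠ 1} : Finset G) | Γ.Adj D (x • D)} = w * ν := by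
    rw [← hv a b, filter_filter]; congr 1; ext x; simp only [mem_filter, mem_univ, true_and]
    exact ⟨fun e => ⟨e.1.1, e.2⟩, fun e => ⟨⟨e.1, by rintro rfl; exact e.2.ne (one_smul ..).symm⟩, e.2⟩⟩
  have v2 := card_filter_add_card_filter_not (s := {x | x ∈ K A ∧ x ≠ 1}) fun x : G => Γ.Adj D (x • D)
  have v3 := Pm.Z1 (K A)
  rw [h.hk] at v3
  rw [← sum_filter_add_sum_filter_not _ fun x : G => Γ.Adj D (x • D),
    sum_const_nat (m := u * w * l') fun x hx => h.sr.adj' (mem_filter.1 hx).2,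
    sum_const_nat (m := w * m) fun x hx => h.sr.nadj' (fun e => (mem_filter.1 (mem_filter.1 hx).1).2.2
      (h.free1 rfl (mem_filter.1 (mem_filter.1 hx).1).2.1 a e.symm)) (mem_filter.1 hx).2, v1] at PI
  have one : ∀ R, Γ.Adj D R → #{x ∈ ({x | x ∈ K A ∧ x ≠ 1} : Finset G) | Γ.Adj D R ∧ Γ.Adj (x • D) R} + 1 =
      #{x : G | x ∈ K A ∧ Γ.Adj D (x • R)} := fun R e => by
    rw [← card_erase_add_one (s := {x : G | x ∈ K A ∧ Γ.Adj D (x • R)}) (a := 1) (by simpa using e)]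
    congr 1
    refine card_bijective _ inv_involutive.bijective fun x => ?_
    simp only [mem_filter, mem_univ, true_and, mem_erase, inv_mem_iff, ne_eq, inv_eq_one, e]
    rw [← h.inv x D, smul_inv_smul]; tauto
  let S1 : Finset X := {R | Γ.Adj A R ∧ Γ.Adj D R}
  let S2 : Finset X := ({x : G | x ∈ K A ∧ Γ.Adj D (x • D)} : Finset G).image (· • D)
  have c2 : #S2 = w * ν := by
    rw [card_image_of_injOn fun x hx z hz d => ?_, hv a b]
    exact (inv_mul_eq_one.1 (h.free1 rfl (mul_mem (inv_mem (mem_filter.1 hz).2.1) (mem_filter.1 hx).2.1) a (by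
      rw [mul_smul, (d : x • D = _), inv_smul_smul]))).symm
  have P2 := (sum_le_sum_of_subset (subset_univ (S1 ∪ S2))).trans PI.ge
  rw [sum_union (disjoint_left.2 fun R d d' => by
      obtain ⟨x, hx, rfl⟩ := mem_image.1 d'
      exact h.nadj b (h.fix (mem_filter.1 hx).2.1) (mem_filter.1 d).2.1),
    sum_const_nat (m := w * m - 1) fun R d => by
      have e := (mem_filter.1 d).2
      refine Nat.eq_sub_of_add_eq ((one R e.2).trans ?_)
      rw [← h.sr.nadj' a b]; convert nbK (Γ.Adj D) e.1,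
    sum_const_nat (m := w * ν - 1) fun R d => by
      obtain ⟨z, hz, rfl⟩ := mem_image.1 d
      have e := (mem_filter.1 hz).2
      refine Nat.eq_sub_of_add_eq ((one _ e.2).trans ?_)
      rw [← hv a b]
      refine card_bijective _ (Group.mulRight_bijective z) fun x => ?_
      simp only [mem_filter, mem_univ, true_and, mul_smul, mul_mem_cancel_right e.1], c2, h.sr.nadj' a b] at P2
  have mu0 := h.mu0
  obtain ⟨Δ, f, E1, E2⟩ := eig h.sr h.hn (mm ▸ (even_two.add h.jeven).mul_left _) (by omega) h.muk (by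
    rw [hk]; push_cast; ring)
  have m0 := Nat.pos_of_mul_pos_left mu0
  have P3 : ((w * ν : ℕ) : ℤ) * (w * ν - 1 : ℕ) = w * ν * (w * ν - 1) := by
    rcases Nat.eq_zero_or_pos (w * ν) with e | e
    · have : (w : ℤ) * ν = 0 := by exact_mod_cast e
      rw [e, this]; simp
    · rw [Nat.cast_pred e]; push_cast; ring
  have := ar (u := u) (e := w) (m := m) (l := l') (ν := ν) (a := b1) (b := b2) (D := Δ) (f := f)
    (by exact_mod_cast h.jeven) (by have := h.jeven; obtain ⟨a, rfl⟩ := this; omega)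
    ((Int.even_coe_nat _).2 (even_iff_two_dvd.2 we)) (by have := Nat.le_of_dvd h.w0 we; omega) (by omega) (by omega)
    (by omega) (by omega) (by exact_mod_cast h.l1) (by exact_mod_cast h.l2)
    (by rw [hk] at mm; zify at mm; linarith) (by zify at R2'; linarith) (by
      rw [(by omega : #{x ∈ ({x | x ∈ K A ∧ x ≠ 1} : Finset G) | ¬ Γ.Adj D (x • D)} = u * w * (l' + m) - w * ν)] at P2
      zify [mu0, (by omega : w * ν ≤ u * w * (l' + m))] at P2
      push_cast at P3; rw [P3] at P2; linarith)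
    (by rw [E1, hk]; push_cast; ring) (by rw [hk] at E2; push_cast at E2; linarith) fun d => by
      have := h.half (by omega); omega
  obtain ⟨rfl, rfl, e⟩ : u = 2 ∧ w = 2 ∧ l' + m = 1 := by omega
  rw [hk, e]; exact ⟨rfl, rfl⟩

end Ev

theorem Pm.main {k c l w y la mu : ℕ} (h : Pm Γ K k c l w y la mu) (e : Even (Nat.card G)) :
    k = 3 ∧ l = 6 ∨ k = 5 ∧ l = 10 ∨ k = 9 ∧ l = 6 := by
  obtain ⟨b1, b2, ι, j, h⟩ := h.ev (h.ceven e)
  by_cases y1 : y = 1
  · subst y1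
    rcases h.ι0 with rfl | rfl
    exacts [Or.inl h.case0, Or.inr (Or.inl h.case1)]
  · exact Or.inr (Or.inr (h.caseY y1))

end CF.R3f
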