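import Cfsg.Agent.R3f.G
import Cfsg.Agent.Coprime.Thompson

/-! Rank three groups with a Frobenius subconstituent: building the set-up. -/

set_option autoImplicit false

namespace CF.R3f

open Finset MulAction
open scoped _root_.Classical

variable {G X : Type*} [Group G] [MulAction G X] {A B D P Q : X}

variable (G) in
/-- the pairs lie in the same orbital -/
def Ro (A B P Q : X) : Prop := ∃ g : G, g • A = P ∧ g • B = Q

theorem Ro.symm (h : Ro G A B P Q) : Ro G P Q A B := by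
  obtain ⟨g, rfl, rfl⟩ := h; exact ⟨g⁻¹, inv_smul_smul .., inv_smul_smul ..⟩

theorem Ro.trans {R S : X} (h : Ro G A B P Q) (h' : Ro G P Q R S) : Ro G A B R S := by
  obtain ⟨g, rfl, rfl⟩ := h; obtain ⟨x, rfl, rfl⟩ := h'; exact ⟨x * g, mul_smul .., mul_smul ..⟩

theorem Ro.swap (h : Ro G A B P Q) : Ro G B A Q P := h.imp fun _ => And.symm

theorem Ro.sm (g : G) (P Q : X) : Ro G P Q (g • P) (g • Q) := ⟨g, rfl, rfl⟩

theorem Ro.ne (h : Ro G A B P Q) (n : B ≠ A) : P ≠ Q := by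
  obtain ⟨g, rfl, rfl⟩ := h; exact fun e => n (smul_left_cancel g e).symm

theorem eqv [IsPreprimitive G X] (E : X → X → Prop) (i : ∀ (g : G) P Q, E P Q → E (g • P) (g • Q)) (r : E A A)
    (t : ∀ P Q R, E P Q → E P R → E Q R) (a : E A B) (n : B ≠ A) : E A D := by
  haveI : Nontrivial X := ⟨⟨B, A, n⟩⟩
  have s : ∀ P, E A P → E P A := fun P e => t _ _ _ e r
  let T : Subgroup G :=
    { carrier := {g | E A (g • A)}
      one_mem' := by simpa using r
      mul_mem' := fun {x y} hx hy => t _ _ _ (s _ hx) (mul_smul x y A ▸ i x _ _ hy)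
      inv_mem' := fun {x} hx => by simpa using i x⁻¹ _ _ (s _ hx) }
  obtain ⟨g, rfl⟩ := exists_smul_eq G A D
  obtain ⟨x, rfl⟩ := exists_smul_eq G A B
  exact ((IsPreprimitive.isCoatom_stabilizer_of_isPreprimitive G A).2 T (lt_of_le_of_ne
    (fun g hg => show E A (g • A) from (hg : g • A = A).symm ▸ r) fun e => n (e.ge (a : x ∈ T)))).ge (Subgroup.mem_top g)

theorem third [IsPretransitive G X] (h3 : Nat.card (orbitRel.Quotient (stabilizer G A) X) = 3) (n : B ≠ A) :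
    ∃ D, D ≠ A ∧ ¬ Ro G A B A D ∧ ∀ P Q, P = Q ∨ Ro G A B P Q ∨ Ro G A D P Q := by
  haveI : Finite (orbitRel.Quotient (stabilizer G A) X) := Nat.finite_of_card_ne_zero (by omega)
  letI := Fintype.ofFinite (orbitRel.Quotient (stabilizer G A) X)
  let q : X → orbitRel.Quotient (stabilizer G A) X := Quotient.mk''
  have e : ∀ P Q, q Q = q P ↔ Ro G A P A Q := fun P Q => Quotient.eq''.trans
    ⟨fun ⟨g, e⟩ => ⟨g, g.2, e⟩, fun ⟨g, a, b⟩ => ⟨⟨g, a⟩, b⟩⟩
  have nA : ∀ P, q P = q A → P = A := fun P d => by obtain ⟨g, a, b⟩ := (e _ _).1 d; exact b.symm.trans a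
  obtain ⟨d, hd⟩ := card_eq_one.1 (show #(univ \ {q A, q B}) = 1 by
    rw [card_univ_diff, card_pair fun d => n (nA _ d.symm), ← Nat.card_eq_fintype_card, h3])
  obtain ⟨D, rfl⟩ : ∃ D, q D = d := Quotient.exists_rep d
  have m : ∀ P, ¬ (q P = q A ∨ q P = q B) ↔ q P = q D := fun P => by simpa using Finset.ext_iff.1 hd (q P)
  have := (m D).2 rfl
  refine ⟨D, fun d => this (Or.inl (congrArg q d)), fun d => this (Or.inr ((e _ _).2 d)), fun P Q => ?_⟩
  obtain ⟨g, rfl⟩ := exists_smul_eq G A P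
  obtain ⟨Q, rfl⟩ := (MulAction.bijective g).surjective Q
  by_cases c : q Q = q A ∨ q Q = q B
  · exact c.imp (fun d => nA _ d ▸ rfl) fun d => Or.inl (((e _ _).1 d).trans (.sm ..))
  · exact Or.inr (Or.inr (((e _ _).1 ((m Q).1 c)).trans (.sm ..)))

theorem exists_st [Fintype G] [Fintype X] [FaithfulSMul G X] [IsPreprimitive G X] (ev : Even (Nat.card G))
    (h3 : Nat.card (orbitRel.Quotient (stabilizer G A) X) = 3) (n : B ≠ A)
    (hfaith : ∀ g ∈ stabilizer G A, (∀ h ∈ stabilizer G A, g • (h • B) = h • B) → g = 1)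
    (hfix : ∃ g ∈ stabilizer G A, g ≠ 1 ∧ g • B = B)
    (hfrob : ∀ g ∈ stabilizer G A, ∀ h ∈ stabilizer G A, g • B = B → g • (h • B) = h • B → h • B ≠ B → g = 1) :
    ∃ (Γ : SimpleGraph X) (K : X → Subgroup G), St Γ K := by
  obtain ⟨D, nD, nBD, cov⟩ := third h3 n
  have sy : Ro G A B B A := by
    haveI : Fact (Nat.Prime 2) := ⟨Nat.prime_two⟩
    obtain ⟨t, ht⟩ := exists_prime_orderOf_dvd_card' 2 ev.two_dvd
    obtain ⟨P, hP⟩ : ∃ P : X, t • P ≠ P := by
      by_contra d; push Not at d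
      rw [eq_of_smul_eq_smul (α := X) (m₁ := t) (m₂ := 1) (by simpa using d), orderOf_one] at ht; omega
    have s : Ro G P (t • P) (t • P) P := ⟨t, rfl, by rw [← mul_smul, ← sq, ← ht, pow_orderOf_eq_one, one_smul]⟩
    rcases cov B A with e | e | e
    exacts [(n e).elim, e, ((cov P (t • P)).resolve_left hP.symm).elim (fun f => (f.trans s).trans f.swap.symm)
      fun f => (nBD (e.swap.symm.trans (f.swap.trans (s.symm.trans f.symm)))).elim]
  let Γ : SimpleGraph X := ⟨Ro G A B, ⟨fun _ _ e => sy.trans e.swap⟩, ⟨fun _ e => e.ne n rfl⟩⟩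
  have iv : ∀ (g : G) P Q, Γ.Adj (g • P) (g • Q) ↔ Γ.Adj P Q := fun g P Q =>
    ⟨fun e => Ro.trans e (Ro.sm ..).symm, fun e => Ro.trans e (.sm ..)⟩
  have ab : Γ.Adj A B := ⟨1, one_smul .., one_smul ..⟩
  obtain ⟨x, hx, x1, xB⟩ := hfix
  obtain ⟨K, k1, k2, k3, -, -, k4⟩ := CF.Coprime.frob_exists_nilpotent_kernel (H := stabilizer (stabilizer G A) B)
    (CF.Coprime.isFrobeniusComplement_iff.2 ⟨fun e => x1 (congrArg Subtype.val
      (Subgroup.mem_bot.1 (e.le (show ⟨x, hx⟩ ∈ stabilizer (stabilizer G A) B from xB)))),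
      fun e => x1 (hfaith x hx fun g hg => by rw [show g • B = B from e.ge (Subgroup.mem_top ⟨g, hg⟩), xB]),
      fun g z hz z1 e => by
        by_contra d
        refine z1 (Subtype.ext (hfrob z z.2 _ (inv_mem g.2) hz ?_ fun f => d (inv_smul_eq_iff.1 f).symm))
        rw [eq_inv_smul_iff, ← mul_smul, ← mul_smul]; exact e⟩)
  let M : X → G → Prop := fun P g => g • P = P ∧ (g = 1 ∨ ∀ Q, Γ.Adj P Q → g • Q ≠ Q)
  have Mc : ∀ g P x, M (g • P) (g * x * g⁻¹) ↔ M P x := fun g P x => by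
    refine and_congr (cj_smul ..) (or_congr (by simp [mul_eq_one_iff_eq_inv']) ?_)
    rw [(MulAction.bijective g).surjective.forall]
    simp only [iv, ne_eq, cj_smul]
  have M0 : ∀ x, x ∈ K.map (stabilizer G A).subtype ↔ M A x := fun x => by
    have : ∀ z : stabilizer G A, z ∈ K ↔ M A z := fun z => by
      rw [← SetLike.mem_coe, k1, CF.Coprime.mem_frobeniusKernel_iff]
      refine ⟨fun e => ⟨z.2, e.imp (congrArg _) ?_⟩, fun e => e.2.imp Subtype.ext fun e g d => e _ ⟨_, inv_mem g.2, rfl⟩ ?_⟩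
      · rintro e _ ⟨g, hg, rfl⟩ d
        exact e ⟨g, hg⟩⁻¹ (by show (g⁻¹ * z * g⁻¹⁻¹) • B = B; rw [inv_inv, mul_smul, mul_smul, d, inv_smul_smul])
      · rw [eq_inv_smul_iff, ← mul_smul, ← mul_smul]; exact d
    exact ⟨by rintro ⟨z, hz, rfl⟩; exact (this z).1 hz, fun e => ⟨⟨x, e.1⟩, (this _).2 e, rfl⟩⟩
  choose f hf using exists_smul_eq G A
  have mem : ∀ P x, x ∈ (K.map (stabilizer G A).subtype).map (MulAut.conj (f P)).toMonoidHom ↔ M P x := fun P x => by
    rw [Subgroup.mem_map_equiv, M0, ← Mc (f P), hf]; simp [mul_assoc]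
  refine ⟨Γ, _, iv, fun a b => Ro.trans (Ro.symm a) b, fun {P Q P' Q'} a b c d => Ro.trans
    (((cov P Q).resolve_left a).resolve_left b).symm (((cov P' Q').resolve_left c).resolve_left d), ?_, mem, ?_,
    fun P => ⟨_, f P, hf P, rfl⟩, ⟨A, B, x, ab, x1, hx, xB⟩, fun P => ?_, ?_, fun P => ?_⟩
  · rintro g _ _ _ ⟨u, rfl, rfl⟩ ⟨v, e, rfl⟩ a b c d
    have := hfrob (u⁻¹ * g * u) (by show _ • _ = _; rw [mul_smul, mul_smul, b, inv_smul_smul]) (u⁻¹ * v)
      (by show _ • _ = _; rw [mul_smul, e, inv_smul_smul]) (by rw [mul_smul, mul_smul, c, inv_smul_smul])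
      (by simp only [mul_smul, smul_inv_smul, d]) fun e => a (by rw [mul_smul, inv_smul_eq_iff] at e; exact e.symm)
    rw [← mul_inv_cancel_left u g, ← mul_inv_cancel_right (u⁻¹ * g) u, this]; simp
  · rintro _ _ _ ⟨u, rfl, rfl⟩ ⟨v, e, rfl⟩
    obtain ⟨⟨k, c⟩, d⟩ := k3.2 ⟨u⁻¹ * v, by show _ • _ = _; rw [mul_smul, e, inv_smul_smul]⟩
    refine ⟨u * k.1.1 * u⁻¹, (mem _ _).2 ((Mc ..).2 ((M0 _).1 ⟨_, k.2, rfl⟩)), ?_⟩
    have d' : k.1.1 * c.1.1 = u⁻¹ * v := congrArg Subtype.val d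
    rw [← mul_inv_cancel_left u v, ← d', mul_smul u (_ * _), cj_smul, mul_smul, show c.1.1 • B = B from c.2]
  · by_contra d; push Not at d
    refine eqv (G := G) (fun P Q => ¬ Γ.Adj P Q) (fun g P Q => by rw [iv]; exact id) Γ.irrefl (fun R S T a b => ?_)
      nBD nD ab
    obtain ⟨g, rfl⟩ := exists_smul_eq G R P
    rw [← iv g] at a b ⊢
    exact d _ _ a b
  · by_contra d; push Not at d
    refine (eqv (G := G) (D := D) (fun P Q => P = Q ∨ Γ.Adj P Q) (fun g P Q e => e.imp (congrArg _) (iv ..).2)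
      (Or.inl rfl) (fun R S T a b => ?_) (Or.inr ab) n).elim nD.symm nBD
    rcases a with rfl | a
    · exact b
    rcases b with rfl | b
    · exact Or.inr a.symm
    by_contra c; push Not at c
    exact d _ _ _ c.1 c.2 a.symm b.symm
  · exact Group.nilpotent_of_mulEquiv ((K.equivMapOfInjective _ (stabilizer G A).subtype_injective).trans
      (Subgroup.equivMapOfInjective _ _ (MulAut.conj (f P)).injective))

end CF.R3f
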